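import Mathlib
import Cfsg.Agent.Or8.Defs
import Cfsg.Agent.Or8.Bas

/-! Certificates for linear relations between the translates of a vector. -/

set_option autoImplicit false
set_option linter.unusedSectionVars false
open Cfsg Subgroup

namespace Cfsg.Agent.Or8.Ct

variable {Y W T : Type*} [Group Y] [AddCommGroup W] [DistribMulAction Y W]

/-- `f` evaluates the labels `act g p` of the translates `g • w`. -/
structure Lab (act : Y → T → T) (p : T) (w : W) (f : T → W) : Prop where
  mul : ∀ a b t, act (a * b) t = act a (act b t)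
  ev : ∀ g, f (act g p) = g • w

theorem exists_lab {act : Y → T → T} (am : ∀ a b t, act (a * b) t = act a (act b t))
    (a1 : ∀ t, act 1 t = t) {p : T} {w : W} (hst : ∀ h, act h p = p → h • w = w) :
    ∃ f : T → W, Lab act p w f := by
  classical
  refine ⟨fun t => if h : ∃ g, act g p = t then h.choose • w else 0, am, fun g => ?_⟩
  have h : ∃ g', act g' p = act g p := ⟨g, rfl⟩
  simp only [dif_pos h]
  have := hst (g⁻¹ * h.choose) (by rw [am, h.choose_spec, ← am, inv_mul_cancel, a1])
  rwa [mul_smul, inv_smul_eq_iff] at this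

/-- The list `t, y t, y² t, …`. -/
def ol (act : Y → T → T) (y : Y) : ℕ → T → List T := fun n =>
  Nat.rec (fun _ => []) (fun _ ih t => t :: ih (act y t)) n

variable {act : Y → T → T} {p : T} {w : W} {f : T → W}

theorem Lab.smul (h : Lab act p w f) {t : T} (ht : ∃ g, act g p = t) (y : Y) :
    f (act y t) = y • f t := by
  obtain ⟨g, rfl⟩ := ht
  rw [← h.mul, h.ev, h.ev, mul_smul]

theorem Lab.sum_ol (h : Lab act p w f) (y : Y) (n : ℕ) : ∀ {t : T}, (∃ g, act g p = t) →
    ((ol act y n t).map f).sum = ∑ i ∈ Finset.range n, y ^ i • f t := by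
  induction n with
  | zero => exact fun _ => rfl
  | succ n ih =>
    rintro _ ⟨g, rfl⟩
    show ((act g p :: ol act y n (act y (act g p))).map f).sum = _
    rw [List.map_cons, List.sum_cons, ih ⟨y * g, h.mul ..⟩, Finset.sum_range_succ', add_comm,
      h.smul ⟨g, rfl⟩]
    simp only [pow_succ, mul_smul, pow_zero, one_smul]

theorem Lab.nrm (h : Lab act p w f) (md : Md Y W) {y : Y} {n : ℕ} (hy : orderOf y = n) (h5 : 5 ≤ n)
    {t : T} (ht : ∃ g, act g p = t) : ((ol act y n t).map f).sum = 0 := by
  rw [h.sum_ol y n ht, ← hy]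
  exact md.nrm y (hy ▸ h5) _

/-- The check of a certificate: `R` lists elements of order `n` and labels. -/
def Chk [DecidableEq T] {ι : Type*} (act : Y → T → T) (el : ι → Y) (n : ℕ) (ok : T → Prop)
    (L : List T) (R : List (ι × T)) : Prop :=
  (∀ r ∈ R, el r.1 ^ n = 1 ∧ el r.1 ≠ 1 ∧ ok r.2) ∧
    ∀ i ∈ L ++ R.flatMap fun r => ol act (el r.1) n r.2,
      (L ++ R.flatMap fun r => ol act (el r.1) n r.2).count i % 2 = 0

instance decChk [DecidableEq T] [DecidableEq Y] {ι : Type*} (act : Y → T → T) (el : ι → Y) (n : ℕ)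
    (ok : T → Prop) [DecidablePred ok] (L : List T) (R : List (ι × T)) :
    Decidable (Chk act el n ok L R) :=
  inferInstanceAs (Decidable (_ ∧ _))

theorem Lab.cert [DecidableEq T] (h : Lab act p w f) (md : Md Y W) {ι : Type*} {el : ι → Y} {n : ℕ}
    (hn : n = 5 ∨ n = 7) {ok : T → Prop} (hok : ∀ t, ok t → ∃ g, act g p = t) {L : List T}
    {R : List (ι × T)} (c : Chk act el n ok L R) : (L.map f).sum = 0 := by
  have : Fact n.Prime := ⟨by rcases hn with rfl | rfl <;> norm_num⟩
  have h1 := Or8.cert md.two f _ c.2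
  have h2 : ∀ R : List (ι × T), (∀ r ∈ R, el r.1 ^ n = 1 ∧ el r.1 ≠ 1 ∧ ok r.2) →
      ((R.flatMap fun r => ol act (el r.1) n r.2).map f).sum = 0 := fun R hR => by
    induction R with
    | nil => rfl
    | cons r R ih =>
      obtain ⟨k1, k2, k3⟩ := hR r List.mem_cons_self
      rw [List.flatMap_cons, List.map_append, List.sum_append,
        ih fun r' hr' => hR r' (List.mem_cons_of_mem _ hr'),
        h.nrm md (orderOf_eq_prime k1 k2) (by omega) (hok _ k3), add_zero]
  rwa [List.map_append, List.sum_append, h2 R c.1, add_zero] at h1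

theorem fix_nrm {x : Y} (hx : x ^ 3 = 1) (w : W) :
    x • (w + x • w + (x * x) • w) = w + x • w + (x * x) • w := by
  rw [smul_add, smul_add, ← mul_smul, ← mul_smul, ← pow_three, hx, one_smul]
  abel

theorem three (two : ∀ w : W, w + w = 0) {x : Y} {w : W} (h : x • w = w) :
    w + x • w + (x * x) • w = w := by
  rw [mul_smul, h, h, two, zero_add]

theorem fix_conj {x g : Y} {w : W} (h : (g * x * g⁻¹) • w = w) : x • g⁻¹ • w = g⁻¹ • w := by
  rw [eq_inv_smul_iff, ← mul_smul, ← mul_smul, h]

end Cfsg.Agent.Or8.Ct
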