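import Mathlib
import Cfsg.Agent.Or8.Defs
import Cfsg.Agent.Or8.Bas
import Cfsg.Agent.Or8.Ct
import Cfsg.Agent.Sym.Index

/-! Modules for `S5` and `S6`. -/

set_option autoImplicit false
set_option linter.unusedSectionVars false
open Cfsg Subgroup

namespace Cfsg.Agent.Or8

open Cfsg.Agent.K3P Cfsg.Agent.Loc.Mss Equiv
open scoped commutatorElement

universe u

variable {W : Type*} [AddCommGroup W]

namespace MS5

/-- A three-cycle. -/
def x0 : S5 := List.formPerm [0, 1, 2]

theorem cent : ∀ h : S5, h * x0 * h⁻¹ = x0 → h = 1 ∨ h = x0 ∨ h = x0 * x0 ∨ h = swap 3 4 ∨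
    h = swap 3 4 * x0 ∨ h = swap 3 4 * (x0 * x0) := by decide +kernel

theorem x0_three : x0.IsThreeCycle := card_support_eq_three_iff.1 (by decide +kernel)

theorem conj_ok : ∀ t : S5, t.support.card = 3 → ∃ g : S5, g * x0 * g⁻¹ = t := fun _ ht =>
  isConj_iff.1 (Perm.isConj_iff_cycleType_eq.2
    (x0_three.trans (card_support_eq_three_iff.1 ht).symm))

theorem fpf0 [DistribMulAction S5 W] (md : Md S5 W) {w : W} (hw : x0 • w = w) : w = 0 := by
  have ht : (swap 3 4 : S5) • w = w :=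
    md.cen x0_three.orderOf (swap_mul_self _ _) (show _ * _ = _ * _ by decide +kernel) hw
  obtain ⟨f, hf⟩ := Ct.exists_lab (act := fun (g : S5) (t : S5) => g * t * g⁻¹)
    (fun a b t => by group) (fun t => by group) (p := x0) (w := w) fun h e => by
      rcases cent h e with rfl | rfl | rfl | rfl | rfl | rfl <;> simp only [one_smul, mul_smul, hw, ht]
  have h6 := hf.nrm md (y := swap 3 4 * x0) (n := 6) ((orderOf_eq_iff (by norm_num)).2
    (by decide +kernel)) (by norm_num) (conj_ok (List.formPerm [1, 2, 3]) (by decide +kernel))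
  have := hf.cert md (el := List.formPerm) (Or.inl rfl) conj_ok
    (L := x0 :: Ct.ol (fun g t => g * t * g⁻¹) (swap 3 4 * x0) 6 (List.formPerm [1, 2, 3]))
    (R := [([0, 1, 2, 3, 4], List.formPerm [2, 3, 4]), ([0, 1, 3, 2, 4], List.formPerm [1, 2, 4]),
      ([0, 1, 3, 4, 2], List.formPerm [2, 3, 4])]) (by decide +kernel)
  rw [List.map_cons, List.sum_cons, h6, add_zero] at this
  simpa [this] using (hf.ev 1).symm

/-- An automorphism of `S6` mapping three-cycles to products of two three-cycles. -/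
theorem outer : ∃ ψ : MulAut S6, ∀ a : S6, a.IsThreeCycle → (ψ a).cycleType = {3, 3} := by
  obtain ⟨ψ, hψ, -⟩ := Sym.exists_outer_six (α := Fin 6) rfl
  let a0 : S6 := List.formPerm [0, 1, 2]
  have h0 : a0.IsThreeCycle := card_support_eq_three_iff.1 (by decide +kernel)
  have key : ∀ t : S6, t * a0 = a0 * t → t * t = 1 → ∃ i, t i = i := by decide +kernel
  have h1 : (ψ a0).cycleType = {3, 3} := by
    obtain ⟨k, hk1, hk2, hk⟩ := Sym.exists_cycleType_of_orderOf_prime (g := ψ a0) Nat.prime_three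
      (by rw [MulEquiv.orderOf_eq, h0.orderOf])
    rw [Fintype.card_fin] at hk2
    obtain rfl | rfl : k = 1 ∨ k = 2 := by omega
    swap
    · exact hk
    obtain ⟨g, hg⟩ := isConj_iff.1 (Perm.isConj_iff_cycleType_eq.2 (h0.trans hk.symm))
    have e1 : ψ (swap 4 5) * ψ a0 = ψ a0 * ψ (swap 4 5) := by
      rw [← map_mul, ← map_mul, show swap 4 5 * a0 = a0 * swap 4 5 by decide +kernel]
    obtain ⟨i, hi⟩ := key (g⁻¹ * ψ (swap 4 5) * g) (by
      calc g⁻¹ * ψ (swap 4 5) * g * a0 = g⁻¹ * (ψ (swap 4 5) * (g * a0 * g⁻¹)) * g := by group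
        _ = _ := by rw [hg, e1, ← hg]; group) (by
      calc g⁻¹ * ψ (swap 4 5) * g * (g⁻¹ * ψ (swap 4 5) * g)
          = g⁻¹ * (ψ (swap 4 5) * ψ (swap 4 5)) * g := by group
        _ = 1 := by rw [← map_mul, swap_mul_self, map_one]; group)
    rw [Perm.mul_apply, Perm.mul_apply, Perm.inv_eq_iff_eq] at hi
    exact (Sym.apply_ne_of_cycleType_two_two_two rfl (hψ _ ⟨4, 5, by decide, rfl⟩) _ hi).elim
  refine ⟨ψ, fun a ha => ?_⟩
  obtain ⟨g, rfl⟩ := isConj_iff.1 (Perm.isConj_iff_cycleType_eq.2 (h0.trans ha.symm))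
  rw [map_mul, map_mul, map_inv, Perm.cycleType_conj, h1]

end MS5

open MS5

theorem s5_fpf [DistribMulAction S5 W] (md : Md S5 W) {x : S5} (hx : orderOf x = 3) {w : W}
    (hw : x • w = w) : w = 0 := by
  obtain ⟨k, hk1, hk2, hk⟩ := Sym.exists_cycleType_of_orderOf_prime Nat.prime_three hx
  rw [Fintype.card_fin] at hk2
  obtain rfl : k = 1 := by omega
  obtain ⟨g, rfl⟩ := isConj_iff.1 (Perm.isConj_iff_cycleType_eq.2 (x0_three.trans hk.symm))
  exact (smul_eq_zero_iff_eq _).1 (fpf0 md (Ct.fix_conj hw))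

theorem s6_triv [DistribMulAction S6 W] (md : Md S6 W) (w : W) : w = 0 := by
  have key : ∀ ι : S5 →* S6, Function.Injective ι → ∀ a : S6, a.cycleType = (ι x0).cycleType →
      ∀ v : W, a • v = v → v = 0 := fun ι hι a ha v hv => by
    obtain ⟨g, rfl⟩ := isConj_iff.1 (Perm.isConj_iff_cycleType_eq.2 ha.symm)
    have h := Ct.fix_conj hv
    letI := DistribMulAction.compHom W ι
    have h2 := fpf0 (md.comp ι hι) h
    exact (smul_eq_zero_iff_eq g⁻¹).1 h2
  let e : Fin 5 ≃ {i : Fin 6 // i ≠ Fin.last 5} := finSuccAboveEquiv (Fin.last 5)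
  have h1 : (Perm.extendDomainHom e x0).IsThreeCycle :=
    (Perm.cycleType_extendDomain e).trans x0_three
  obtain ⟨ψ, hψ⟩ := outer
  have k1 : ∀ a : S6, a.IsThreeCycle → ∀ v : W, a • v = v → v = 0 := fun a ha =>
    key _ (Perm.extendDomainHom_injective e) a (ha.trans h1.symm)
  have k2 : ∀ a : S6, a.cycleType = {3, 3} → ∀ v : W, a • v = v → v = 0 := fun a ha =>
    key (ψ.toMonoidHom.comp (Perm.extendDomainHom e))
      (ψ.injective.comp (Perm.extendDomainHom_injective e)) a (ha.trans (hψ _ h1).symm)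
  let a : S6 := List.formPerm [0, 1, 2]
  let b : S6 := List.formPerm [3, 4, 5]
  have ha : a.IsThreeCycle := card_support_eq_three_iff.1 (by decide +kernel)
  have hb : b.IsThreeCycle := card_support_eq_three_iff.1 (by decide +kernel)
  have hd : a.Disjoint b := by unfold Perm.Disjoint; decide +kernel
  have h3 : (a * b).cycleType = {3, 3} := by rw [hd.cycleType_mul, ha, hb]; rfl
  have h4 : (a * b⁻¹).cycleType = {3, 3} := by
    rw [hd.inv_right.cycleType_mul, Perm.cycleType_inv, ha, hb]; rfl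
  obtain ⟨w0, w1, w2, w3, w4, e0, e1, -, rfl, rfl, rfl, rfl⟩ := dec9 md.two (a := a) (b := b)
    (by decide +kernel) (by decide +kernel) hd.commute w
  rw [e0, k1 a ha w0 e1, k1 a ha _ (Ct.fix_nrm (by decide +kernel) w),
    k1 b hb _ (Ct.fix_nrm (by decide +kernel) w), k2 _ h3 _ (Ct.fix_nrm (by decide +kernel) w),
    k2 _ h4 _ (Ct.fix_nrm (by decide +kernel) w)]
  simp

end Cfsg.Agent.Or8
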