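import Mathlib
import Cfsg.Agent.Or8.Defs
import Cfsg.Agent.Or8.Bas
import Cfsg.Agent.Or8.Ct
import Cfsg.Agent.Or8.MS5

/-! Modules for `A6`. -/

set_option autoImplicit false
set_option linter.unusedSectionVars false
open Cfsg Subgroup

namespace Cfsg.Agent.Or8

open Cfsg.Agent.K3P Cfsg.Agent.Loc.Mss Equiv
open scoped commutatorElement

universe u

variable {W : Type*} [AddCommGroup W]


/-- An automorphism of `A6` exchanging the two classes of elements of order three. -/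
theorem exists_swap : ∃ φ : A6 ≃* A6, (∀ a, Ta a → Tb (φ a)) ∧ (∀ b, Tb b → Ta (φ b)) := by
  obtain ⟨ψ, hψ⟩ := MS5.outer
  refine ⟨MulAut.characteristic _ ψ,
    (Sym.isThreeCycle_map_or_of_card_eq_six (α := Fin 6) rfl _).resolve_left fun h => ?_⟩
  have h0 : Perm.IsThreeCycle (List.formPerm [0, 1, 2] : S6) :=
    card_support_eq_three_iff.1 (by decide +kernel)
  have h1 : (ψ (List.formPerm [0, 1, 2])).cycleType = {3} := h ⟨_, h0.mem_alternatingGroup⟩ h0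
  rw [hψ _ h0] at h1
  exact absurd h1 (by decide)

theorem ta_or_tb {x : A6} (hx : orderOf x = 3) : Ta x ∨ Tb x := by
  obtain ⟨k, hk1, hk2, hk⟩ := Sym.exists_cycleType_of_orderOf_prime (g := (x : S6)) Nat.prime_three
    (by rwa [Subgroup.orderOf_coe])
  rw [Fintype.card_fin] at hk2
  obtain rfl | rfl : k = 1 ∨ k = 2 := by omega
  exacts [Or.inl hk, Or.inr hk]

namespace MA6

/-- The square of a cycle. -/
def s6 (l : List (Fin 6)) : A6 :=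
  ⟨l.formPerm * l.formPerm, Perm.mem_alternatingGroup.2 (by rw [map_mul, Int.units_mul_self])⟩

/-- The action on pairs. -/
def act2 (g : A6) (t : Fin 6 × Fin 6) : Fin 6 × Fin 6 := (g.1 t.1, g.1 t.2)

/-- The action on triples. -/
def act3 (g : A6) (t : Fin 6 × Fin 6 × Fin 6) : Fin 6 × Fin 6 × Fin 6 :=
  (g.1 t.1, g.1 t.2.1, g.1 t.2.2)

/-- Distinct entries. -/
abbrev ok2 (t : Fin 6 × Fin 6) : Prop := t.1 ≠ t.2

/-- Distinct entries. -/
abbrev ok3 (t : Fin 6 × Fin 6 × Fin 6) : Prop := t.1 ≠ t.2.1 ∧ t.1 ≠ t.2.2 ∧ t.2.1 ≠ t.2.2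

/-- The three-cycle `(0 1 2)`. -/
def a0 : A6 := s6 [0, 2, 1]

/-- The three-cycle `(3 4 5)`. -/
def c0 : A6 := s6 [3, 5, 4]

theorem ord3 {x : A6} (h : x ^ 3 = 1 ∧ x ≠ 1) : orderOf x = 3 :=
  haveI := Fact.mk Nat.prime_three
  orderOf_eq_prime h.1 h.2

theorem ta_of {x : A6} (h : x.1.support.card = 3) : Ta x := card_support_eq_three_iff.1 h

theorem tb_of {x : A6} (h : (x ^ 3 = 1 ∧ x ≠ 1) ∧ x.1.support.card ≠ 3) : Tb x :=
  (ta_or_tb (ord3 h.1)).resolve_left fun k => h.2 k.card_support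

theorem ord_ta {x : A6} (h : Ta x) : orderOf x = 3 := by rw [← Subgroup.orderOf_coe, h.orderOf]

theorem ord_tb {x : A6} (h : Tb x) : orderOf x = 3 := by
  rw [← Subgroup.orderOf_coe, ← Perm.lcm_cycleType, h]; rfl

theorem not_both {x : A6} (h : Ta x) (h' : Tb x) : False := absurd (h.symm.trans h') (by decide)

theorem conj_of {g h : A6} (hg : orderOf g = 3) (hc : (g : S6).cycleType = (h : S6).cycleType) :
    ∃ k, k * g * k⁻¹ = h := by
  refine isConj_iff.1 (Sym.isConj_alternatingGroup_of_not_le (Perm.isConj_iff_cycleType_eq.2 hc)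
    fun hle => ?_)
  obtain ⟨k, hk1, hk2, hk⟩ := Sym.exists_cycleType_of_orderOf_prime (g := (g : S6))
    Nat.prime_three (by rwa [Subgroup.orderOf_coe])
  have h1 := Perm.count_le_one_of_centralizer_le_alternating hle 3
  have h2 := Perm.card_le_of_centralizer_le_alternating hle
  rw [hk] at h1 h2
  rw [Multiset.count_replicate_self] at h1
  rw [Multiset.sum_replicate, smul_eq_mul, Fintype.card_fin] at h2
  omega

theorem tr3 (t : Fin 6 × Fin 6 × Fin 6) (h : ok3 t) : ∃ g, act3 g (3, 4, 5) = t := by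
  obtain ⟨i, j, k⟩ := t
  obtain ⟨σ, e⟩ : ∃ σ : S6, (σ 3, σ 4, σ 5) = (i, j, k) :=
    ⟨swap 3 i * swap 4 (swap 3 i j) * swap 5 (swap 4 (swap 3 i j) (swap 3 i k)), by
      revert i j k; decide +kernel⟩
  rcases Int.units_eq_one_or (Perm.sign σ) with s | s
  · exact ⟨⟨σ, s⟩, e⟩
  · refine ⟨⟨σ * swap 0 1, Perm.mem_alternatingGroup.2 (by simp [s])⟩, Eq.trans ?_ e⟩
    show (σ (swap 0 1 3), σ (swap 0 1 4), σ (swap 0 1 5)) = _
    rw [show swap (0 : Fin 6) 1 3 = 3 by decide, show swap (0 : Fin 6) 1 4 = 4 by decide,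
      show swap (0 : Fin 6) 1 5 = 5 by decide]

theorem tr2 (t : Fin 6 × Fin 6) (h : ok2 t) : ∃ g, act2 g (4, 5) = t := by
  obtain ⟨i, j⟩ := t
  obtain ⟨k, hk⟩ : ∃ k, ok3 (k, i, j) := by revert i j; decide +kernel
  obtain ⟨g, e⟩ := tr3 _ hk
  exact ⟨g, congrArg Prod.snd e⟩

theorem st3 : ∀ σ : S6, σ 3 = 3 ∧ σ 4 = 4 ∧ σ 5 = 5 ∧ Perm.sign σ = 1 →
    σ ∈ [1, a0.1, (a0 * a0).1] := by decide +kernel

theorem perm4 : ∀ σ : S6, σ 4 = 4 → σ 5 = 5 → (∀ i ∈ [σ 3, σ 2, σ 1, σ 0, 3, 2, 1, 0],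
    [σ 3, σ 2, σ 1, σ 0, 3, 2, 1, 0].count i % 2 = 0) := by decide +kernel

theorem common : ∀ i j k : Fin 6, ∃ x : A6, orderOf x = 3 ∧ x.1 i = i ∧ x.1 j = j ∧ x.1 k = k := by
  have : ∀ i j k : Fin 6, ∃ a b c : Fin 6, a ≠ b ∧ a ≠ c ∧ b ≠ c ∧ a ≠ i ∧ a ≠ j ∧ a ≠ k ∧ b ≠ i ∧
      b ≠ j ∧ b ≠ k ∧ c ≠ i ∧ c ≠ j ∧ c ≠ k := by decide +kernel
  intro i j k
  obtain ⟨a, b, c, h1, h2, h3, h⟩ := this i j k
  have ht := Perm.isThreeCycle_swap_mul_swap_same h1 h2 h3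
  have fx : ∀ m, a ≠ m → b ≠ m → c ≠ m → (swap a b * swap a c) m = m := fun m e1 e2 e3 => by
    rw [Perm.mul_apply, swap_apply_of_ne_of_ne e1.symm e3.symm, swap_apply_of_ne_of_ne e1.symm e2.symm]
  obtain ⟨a1, a2, a3, b1, b2, b3, c1, c2, c3⟩ := h
  exact ⟨⟨_, ht.mem_alternatingGroup⟩, ord_ta ht, fx i a1 b1 c1, fx j a2 b2 c2, fx k a3 b3 c3⟩

/-- Certificates for the norm of `(0 1 2)(3 4 5)`. -/
def tabN : List (List (List (Fin 6) × Fin 6 × Fin 6)) :=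
  [[([0, 1, 5, 3, 2], (0, 3)), ([0, 1, 4, 2, 5], (0, 1)), ([0, 1, 2, 3, 4], (0, 3))],
   [([0, 1, 5, 4, 2], (0, 5)), ([0, 1, 2, 4, 3], (0, 2)), ([0, 1, 3, 2, 5], (0, 5))],
   [([0, 1, 3, 5, 2], (0, 2)), ([0, 1, 5, 3, 2], (0, 5)), ([0, 1, 3, 2, 4], (0, 2)),
     ([0, 1, 2, 4, 5], (0, 3)), ([0, 1, 3, 2, 5], (0, 5))],
   [([0, 1, 4, 3, 5], (0, 3)), ([0, 1, 2, 4, 5], (0, 1)), ([0, 1, 2, 3, 4], (0, 1)),
     ([0, 1, 5, 3, 4], (0, 3)), ([0, 1, 2, 3, 5], (0, 4))],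
   [([0, 1, 3, 4, 2], (0, 3)), ([0, 1, 4, 3, 2], (0, 3)), ([1, 2, 3, 4, 5], (1, 5)),
     ([0, 1, 3, 4, 5], (0, 5)), ([0, 2, 3, 4, 5], (1, 0))],
   [([1, 2, 4, 3, 5], (1, 4)), ([0, 1, 4, 3, 5], (0, 4)), ([0, 1, 4, 3, 2], (0, 4)),
     ([0, 2, 3, 4, 5], (0, 1)), ([0, 1, 4, 2, 3], (0, 1))],
   [([0, 1, 4, 2, 5], (0, 4)), ([0, 2, 5, 3, 4], (0, 5)), ([0, 1, 5, 2, 3], (0, 5)),
     ([0, 2, 4, 3, 5], (0, 4)), ([0, 1, 2, 3, 4], (5, 0))],
   [([0, 2, 3, 5, 4], (0, 4)), ([0, 1, 5, 4, 2], (0, 2)), ([0, 1, 3, 4, 5], (0, 4)),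
     ([0, 1, 2, 5, 4], (0, 2)), ([1, 2, 3, 4, 5], (1, 0))],
   [([0, 2, 4, 3, 5], (0, 4)), ([0, 1, 3, 4, 5], (0, 4)), ([1, 2, 4, 5, 3], (1, 5))],
   [([0, 1, 4, 5, 3], (0, 4)), ([1, 2, 5, 3, 4], (1, 5)), ([0, 2, 5, 4, 3], (0, 4))]]

theorem chkN : ∀ i j : Fin 6, i ≠ j → ∃ R ∈ tabN,
    Ct.Chk act2 s6 5 ok2 [(i, j), act2 (a0 * c0) (i, j), act2 (a0 * c0 * (a0 * c0)) (i, j)] R := by
  decide +kernel

/-- Certificates for the triangle relations. -/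
def tabT : List (List (List (Fin 6) × Fin 6 × Fin 6)) :=
  [[([0, 1, 4, 3, 5], (0, 4)), ([1, 2, 4, 5, 3], (1, 4)), ([0, 1, 2, 3, 5], (0, 2)),
     ([0, 2, 4, 5, 3], (0, 4)), ([0, 1, 2, 4, 5], (0, 2))],
   [([0, 1, 2, 4, 5], (0, 4)), ([1, 2, 4, 3, 5], (1, 5)), ([0, 2, 4, 3, 5], (0, 5)),
     ([0, 1, 4, 3, 5], (0, 4)), ([0, 1, 5, 3, 2], (0, 5))],
   [([0, 1, 4, 5, 2], (0, 1)), ([0, 1, 4, 5, 3], (0, 1)), ([0, 2, 4, 3, 5], (0, 5)),
     ([1, 2, 5, 4, 3], (1, 3)), ([0, 1, 5, 3, 2], (0, 5))],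
   [([0, 1, 4, 5, 2], (0, 5)), ([0, 2, 3, 5, 4], (0, 2)), ([0, 1, 5, 3, 2], (0, 2)),
     ([1, 2, 4, 5, 3], (1, 2)), ([0, 1, 3, 4, 5], (0, 5))]]

theorem chkT : ∀ k : Fin 6, k ≠ 4 → k ≠ 5 → ∃ R ∈ tabT,
    Ct.Chk act2 s6 5 ok2 [(4, 5), (4, k), (5, k)] R := by decide +kernel

theorem chkS : Ct.Chk act3 s6 5 ok3 [(3, 4, 5), (4, 5, 3), (4, 5, 2), (4, 5, 1), (4, 5, 0), (5, 3, 4),
    (2, 3, 4), (1, 3, 4), (0, 3, 4)]
    [([1, 2, 3, 4, 5], (1, 2, 4)), ([0, 1, 2, 4, 5], (3, 0, 4)), ([0, 1, 2, 4, 5], (0, 2, 4)),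
     ([0, 1, 2, 3, 4], (0, 4, 5)), ([1, 2, 4, 3, 5], (0, 1, 2)), ([0, 1, 5, 3, 2], (0, 2, 1)),
     ([0, 1, 4, 2, 3], (0, 1, 4)), ([0, 1, 3, 2, 4], (0, 2, 5)), ([0, 1, 3, 2, 4], (0, 1, 2)),
     ([0, 2, 5, 3, 4], (0, 2, 4)), ([0, 2, 3, 4, 5], (0, 4, 2)), ([0, 1, 3, 4, 2], (0, 4, 5)),
     ([1, 2, 4, 5, 3], (0, 1, 2)), ([0, 1, 4, 5, 3], (0, 2, 5)), ([0, 1, 5, 3, 2], (0, 1, 4)),
     ([0, 1, 4, 2, 5], (0, 1, 3)), ([1, 2, 4, 5, 3], (0, 1, 3)), ([0, 1, 4, 3, 2], (0, 1, 5)),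
     ([0, 1, 4, 2, 3], (0, 4, 5)), ([0, 1, 5, 4, 3], (0, 2, 5)), ([0, 1, 3, 5, 4], (0, 3, 4)),
     ([1, 2, 5, 4, 3], (0, 1, 2)), ([0, 1, 5, 3, 4], (0, 1, 4)), ([1, 2, 3, 4, 5], (1, 2, 3)),
     ([0, 1, 5, 4, 2], (0, 5, 3)), ([1, 2, 4, 3, 5], (1, 5, 4)), ([0, 1, 4, 5, 3], (0, 1, 4)),
     ([0, 1, 4, 5, 2], (0, 1, 5)), ([0, 2, 5, 4, 3], (0, 5, 1))] := by decide +kernel

variable [DistribMulAction A6 W]

/-- Fixed by the stabiliser of `4` and `5`. -/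
def Fx (e : W) : Prop := ∀ h : A6, h.1 4 = 4 → h.1 5 = 5 → h • e = e

theorem eq_of_add (two : ∀ w : W, w + w = 0) {a b : W} (h : a + b = 0) : a = b := by
  rw [← add_zero a, ← two b, ← add_assoc, h, zero_add]

theorem split (md : Md A6 W) {u : W} (hu : a0 • u = u) :
    ∃ e1 e2 : W, Fx e1 ∧ Fx e2 ∧ u = e2 + (c0 * c0) • e1 := by
  obtain ⟨f, hf⟩ := Ct.exists_lab (act := act3) (fun _ _ _ => rfl) (fun _ => rfl) (p := (3, 4, 5))
    (w := u) fun h e => by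
      have e' := Prod.ext_iff.1 (Prod.ext_iff.1 e).2
      have k := st3 h.1 ⟨(Prod.ext_iff.1 e).1, e'.1, e'.2, h.2⟩
      simp only [List.mem_cons, List.not_mem_nil, or_false] at k
      rcases k with k | k | k
      · rw [show h = 1 from Subtype.ext k, one_smul]
      · rw [show h = a0 from Subtype.ext k, hu]
      · rw [show h = a0 * a0 from Subtype.ext k, mul_smul, hu, hu]
  have sm : ∀ {t}, ok3 t → ∀ y, y • f t = f (act3 y t) := fun ht y => (hf.smul (tr3 _ ht) y).symm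
  refine ⟨f (3, 4, 5) + f (2, 4, 5) + f (1, 4, 5) + f (0, 4, 5),
    f (4, 5, 3) + f (4, 5, 2) + f (4, 5, 1) + f (4, 5, 0), fun h h4 h5 => ?_, fun h h4 h5 => ?_, ?_⟩
  · have := cert md.two (fun k => f (k, 4, 5)) _ (perm4 h.1 h4 h5)
    refine eq_of_add md.two ?_
    simp only [smul_add, sm (t := (3, 4, 5)) (by decide), sm (t := (2, 4, 5)) (by decide),
      sm (t := (1, 4, 5)) (by decide), sm (t := (0, 4, 5)) (by decide), act3, h4, h5]
    simpa [add_assoc] using this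
  · have := cert md.two (fun k => f (4, 5, k)) _ (perm4 h.1 h4 h5)
    refine eq_of_add md.two ?_
    simp only [smul_add, sm (t := (4, 5, 3)) (by decide), sm (t := (4, 5, 2)) (by decide),
      sm (t := (4, 5, 1)) (by decide), sm (t := (4, 5, 0)) (by decide), act3, h4, h5]
    simpa [add_assoc] using this
  · have := hf.cert md (Or.inl rfl) tr3 chkS
    have e0 : f (3, 4, 5) = u := (hf.ev 1).trans (one_smul _ _)
    refine eq_of_add md.two ?_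
    rw [smul_add, smul_add, smul_add, sm (by decide), sm (by decide), sm (by decide), sm (by decide),
      show act3 (c0 * c0) (3, 4, 5) = (5, 3, 4) by decide +kernel,
      show act3 (c0 * c0) (2, 4, 5) = (2, 3, 4) by decide +kernel,
      show act3 (c0 * c0) (1, 4, 5) = (1, 3, 4) by decide +kernel,
      show act3 (c0 * c0) (0, 4, 5) = (0, 3, 4) by decide +kernel, ← e0]
    simpa [add_assoc] using this

theorem Wa_le (md : Md A6 W) {K : AddSubgroup W} (h : ∀ (g : A6) (e : W), Fx e → g • e ∈ K) :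
    Wa W ≤ K := (AddSubgroup.closure_le _).2 fun w ⟨a, ha, e⟩ => by
  obtain ⟨g, rfl⟩ := conj_of (g := a0) (ord3 (by decide +kernel))
    ((ta_of (by decide +kernel)).trans ha.symm)
  obtain ⟨e1, e2, h1, h2, k⟩ := split md (Ct.fix_conj e)
  rw [inv_smul_eq_iff, smul_add, ← mul_smul] at k
  rw [k]
  exact K.add_mem (h _ _ h2) (h _ _ h1)

theorem Fx.lab {e : W} (h : Fx e) : ∃ f, Ct.Lab act2 (4, 5) e f :=
  Ct.exists_lab (fun _ _ _ => rfl) (fun _ => rfl) fun g k =>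
    h g (Prod.ext_iff.1 k).1 (Prod.ext_iff.1 k).2

theorem Fx.fix {e : W} (h : Fx e) {x g : A6} (h4 : x.1 (g.1 4) = g.1 4) (h5 : x.1 (g.1 5) = g.1 5) :
    x • g • e = g • e := by
  obtain ⟨f, hf⟩ := h.lab
  rw [← mul_smul, ← hf.ev, ← hf.ev]
  exact congrArg f (Prod.ext h4 h5)

theorem Fx.nb (md : Md A6 W) {e : W} (h : Fx e) (g : A6) :
    g • e + (a0 * c0) • g • e + (a0 * c0 * (a0 * c0)) • g • e = 0 := by
  obtain ⟨f, hf⟩ := h.lab
  obtain ⟨R, -, c⟩ := chkN (g.1 4) (g.1 5) fun k => absurd (g.1.injective k) (by decide)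
  have := hf.cert md (Or.inl rfl) tr2 c
  simp only [List.map_cons, List.map_nil, List.sum_cons, List.sum_nil, add_zero] at this
  have o : ∃ g', act2 g' (4, 5) = (g.1 4, g.1 5) := ⟨g, rfl⟩
  rw [hf.smul o, hf.smul o, show f (g.1 4, g.1 5) = g • e from hf.ev g] at this
  rwa [add_assoc]

theorem Fx.tri (md : Md A6 W) {e : W} (h : Fx e) {k : Fin 6} (h4 : k ≠ 4) (h5 : k ≠ 5) :
    ∃ g g' : A6, act2 g (4, 5) = (4, k) ∧ act2 g' (4, 5) = (5, k) ∧ e = g • e + g' • e := by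
  obtain ⟨f, hf⟩ := h.lab
  obtain ⟨R, -, c⟩ := chkT k h4 h5
  have := hf.cert md (Or.inl rfl) tr2 c
  obtain ⟨g, hg⟩ := tr2 (4, k) h4.symm
  obtain ⟨g', hg'⟩ := tr2 (5, k) h5.symm
  refine ⟨g, g', hg, hg', eq_of_add md.two ?_⟩
  rw [← hf.ev, ← hf.ev, hg, hg', ← show f (4, 5) = e from (hf.ev 1).trans (one_smul _ _)]
  simpa [add_assoc] using this

/-- The module twisted by an automorphism. -/
def Tws (_ : A6 ≃* A6) (W : Type*) : Type _ := W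

instance instAddTws (φ : A6 ≃* A6) : AddCommGroup (Tws φ W) := inferInstanceAs (AddCommGroup W)

instance instActTws (φ : A6 ≃* A6) : DistribMulAction A6 (Tws φ W) :=
  DistribMulAction.compHom W φ.toMonoidHom

theorem md_tw (md : Md A6 W) (φ : A6 ≃* A6) : Md A6 (Tws φ W) := md.comp φ.toMonoidHom φ.injective

theorem Wa_tw {φ : A6 ≃* A6} (h : (∀ a, Ta a → Tb (φ a)) ∧ ∀ b, Tb b → Ta (φ b)) :
    Wa (Tws φ W) = Wb W := by
  refine congrArg AddSubgroup.closure (Set.ext fun w => ⟨fun ⟨a, ha, e⟩ => ⟨_, h.1 a ha, e⟩,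
    fun ⟨b, hb, e⟩ => ?_⟩)
  obtain ⟨a, rfl⟩ := φ.surjective b
  exact ⟨a, (ta_or_tb (by rw [← φ.orderOf_eq, ord_tb hb])).resolve_right fun k =>
    not_both (h.2 a k) hb, e⟩

theorem Wb_tw {φ : A6 ≃* A6} (h : (∀ a, Ta a → Tb (φ a)) ∧ ∀ b, Tb b → Ta (φ b)) :
    Wb (Tws φ W) = Wa W := by
  refine congrArg AddSubgroup.closure (Set.ext fun w => ⟨fun ⟨a, ha, e⟩ => ⟨_, h.2 a ha, e⟩,
    fun ⟨b, hb, e⟩ => ?_⟩)
  obtain ⟨a, rfl⟩ := φ.surjective b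
  exact ⟨a, (ta_or_tb (by rw [← φ.orderOf_eq, ord_ta hb])).resolve_left fun k =>
    not_both hb (h.1 a k), e⟩

end MA6

open MA6

variable [DistribMulAction A6 W]

theorem smul_mem_Wa (g : A6) {w : W} (hw : w ∈ Wa W) : g • w ∈ Wa W :=
  (AddSubgroup.closure_le ((Wa W).comap (DistribSMul.toAddMonoidHom W g))).2
    (by
      rintro w ⟨a, ha, e⟩
      refine AddSubgroup.subset_closure ⟨g * a * g⁻¹, Perm.cycleType_conj.trans ha, ?_⟩
      show (g * a * g⁻¹) • g • w = g • w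
      rw [mul_smul, inv_smul_smul, mul_smul, e]) hw

theorem smul_mem_Wb (g : A6) {w : W} (hw : w ∈ Wb W) : g • w ∈ Wb W :=
  (AddSubgroup.closure_le ((Wb W).comap (DistribSMul.toAddMonoidHom W g))).2
    (by
      rintro w ⟨a, ha, e⟩
      refine AddSubgroup.subset_closure ⟨g * a * g⁻¹, Perm.cycleType_conj.trans ha, ?_⟩
      show (g * a * g⁻¹) • g • w = g • w
      rw [mul_smul, inv_smul_smul, mul_smul, e]) hw

theorem wa_sup_wb (md : Md A6 W) : Wa W ⊔ Wb W = ⊤ := eq_top_iff.2 fun w _ => by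
  obtain ⟨w0, w1, w2, w3, w4, e0, e1, -, rfl, rfl, rfl, rfl⟩ := dec9 md.two (a := a0) (b := c0)
    (by decide +kernel) (by decide +kernel) (show _ * _ = _ * _ by decide +kernel) w
  have ka : ∀ {a : A6} {v : W}, Ta a → a • v = v → v ∈ Wa W ⊔ Wb W := fun h e =>
    AddSubgroup.mem_sup_left (AddSubgroup.subset_closure ⟨_, h, e⟩)
  have kb : ∀ {a : A6} {v : W}, Tb a → a • v = v → v ∈ Wa W ⊔ Wb W := fun h e =>
    AddSubgroup.mem_sup_right (AddSubgroup.subset_closure ⟨_, h, e⟩)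
  rw [e0]
  exact add_mem (add_mem (add_mem (add_mem (ka (ta_of (by decide +kernel)) e1)
    (ka (ta_of (by decide +kernel)) (Ct.fix_nrm (by decide +kernel) w)))
    (ka (ta_of (by decide +kernel)) (Ct.fix_nrm (by decide +kernel) w)))
    (kb (tb_of (by decide +kernel)) (Ct.fix_nrm (by decide +kernel) w)))
    (kb (tb_of (by decide +kernel)) (Ct.fix_nrm (by decide +kernel) w))

theorem wa_fpf (md : Md A6 W) {w : W} (hw : w ∈ Wa W) {b : A6} (hb : Tb b) (e : b • w = w) :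
    w = 0 := by
  obtain ⟨g, rfl⟩ := conj_of (g := a0 * c0) (ord3 (by decide +kernel))
    ((tb_of (by decide +kernel)).trans hb.symm)
  have h := Wa_le md (K := (AddMonoidHom.id W + DistribSMul.toAddMonoidHom W (a0 * c0) +
    DistribSMul.toAddMonoidHom W (a0 * c0 * (a0 * c0))).ker) (fun g e he => he.nb md g)
    (smul_mem_Wa g⁻¹ hw)
  exact (smul_eq_zero_iff_eq g⁻¹).1 ((Ct.three md.two (Ct.fix_conj e)).symm.trans h)

theorem wb_fpf (md : Md A6 W) {w : W} (hw : w ∈ Wb W) {a : A6} (ha : Ta a) (e : a • w = w) :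
    w = 0 := by
  obtain ⟨φ, h⟩ := exists_swap
  obtain ⟨b, rfl⟩ := φ.surjective a
  exact wa_fpf (W := Tws φ W) (md_tw md φ) ((Wa_tw h).ge hw) (b := b)
    ((ta_or_tb (by rw [← φ.orderOf_eq, ord_ta ha])).resolve_left fun k => not_both ha (h.1 b k)) e

theorem wa_inf_wb (md : Md A6 W) : Wa W ⊓ Wb W = ⊥ := eq_bot_iff.2 fun w ⟨ha, hb⟩ => by
  obtain ⟨w0, w1, w2, w3, w4, e0, e1, -, rfl, rfl, rfl, rfl⟩ := dec9 md.two (a := a0) (b := c0)
    (by decide +kernel) (by decide +kernel) (show _ * _ = _ * _ by decide +kernel) w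
  have ka : ∀ {x : A6}, Ta x → w + x • w + (x * x) • w = 0 := fun h =>
    wb_fpf md (add_mem (add_mem hb (smul_mem_Wb _ hb)) (smul_mem_Wb _ hb)) h
      (Ct.fix_nrm (ord_ta h ▸ pow_orderOf_eq_one _) w)
  have kb : ∀ {x : A6}, Tb x → w + x • w + (x * x) • w = 0 := fun h =>
    wa_fpf md (add_mem (add_mem ha (smul_mem_Wa _ ha)) (smul_mem_Wa _ ha)) h
      (Ct.fix_nrm (ord_tb h ▸ pow_orderOf_eq_one _) w)
  rw [ka (ta_of (by decide +kernel)), ka (ta_of (by decide +kernel)), kb (tb_of (by decide +kernel)),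
    kb (tb_of (by decide +kernel)), add_zero, add_zero, add_zero, add_zero] at e0
  exact wb_fpf md hb (ta_of (x := a0) (by decide +kernel)) (e0 ▸ e1)

namespace MA6

variable {Z : Type*} [AddCommGroup Z] [DistribMulAction A6 Z]

theorem pair_aa (md : Md A6 W) (P : W →+ W →+ Z)
    (eq : ∀ (g : A6) (u v : W), P (g • u) (g • v) = g • P u v)
    (h0 : ∀ (x : A6) (u v : W), orderOf x = 3 → x • u = u → x • v = v → P u v = 0)
    {u v : W} (hu : u ∈ Wa W) (hv : v ∈ Wa W) : P u v = 0 := by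
  have base : ∀ e e' : W, Fx e → Fx e' → ∀ g : A6, P e (g • e') = 0 := fun e e' he he' g => by
    by_cases hk : g.1 4 = 4 ∨ g.1 4 = 5
    · obtain ⟨x, hx, k1, k2, k3⟩ := common 4 5 (g.1 5)
      exact h0 x _ _ hx (he x k1 k2) (he'.fix (by rcases hk with k | k <;> rwa [k]) k3)
    obtain ⟨g1, g2, e1, e2, e3⟩ := he.tri md (not_or.1 hk).1 (not_or.1 hk).2
    have k : ∀ (i : Fin 6) (g' : A6), act2 g' (4, 5) = (i, g.1 4) → P (g' • e) (g • e') = 0 :=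
      fun i g' k => by
        obtain ⟨x, hx, k1, k2, k3⟩ := common i (g.1 4) (g.1 5)
        have l1 : g'.1 4 = i := (Prod.ext_iff.1 k).1
        have l2 : g'.1 5 = g.1 4 := (Prod.ext_iff.1 k).2
        exact h0 x _ _ hx (he.fix (by rwa [l1]) (by rwa [l2])) (he'.fix k2 k3)
    rw [e3, map_add, AddMonoidHom.add_apply, k _ _ e1, k _ _ e2, add_zero]
  refine Wa_le md (K := (P.flip v).ker) (fun g e he => ?_) hu
  refine Wa_le md (K := (P (g • e)).ker) (fun g' e' he' => ?_) hv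
  show P (g • e) (g' • e') = 0
  rw [← smul_inv_smul g (g' • e'), eq, ← mul_smul, base e e' he he', smul_zero]

theorem pair_ba (md : Md A6 W) (mz : Md A6 Z) (hZ : Wb Z = ⊥) (P : W →+ W →+ Z)
    (eq : ∀ (g : A6) (u v : W), P (g • u) (g • v) = g • P u v)
    {u v : W} (hu : u ∈ Wb W) (hv : v ∈ Wa W) : P u v = 0 := by
  have zb : ∀ {b : A6} {z : Z}, Tb b → b • z = z → z = 0 := fun h e =>
    hZ.le (AddSubgroup.subset_closure ⟨_, h, e⟩)
  have base : ∀ u ∈ Wb W, ∀ e : W, Fx e → P u e = 0 := fun u hu e he => by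
    have k : ∀ a b : A6, a.1.support.card = 3 ∧ a.1 4 = 4 ∧ a.1 5 = 5 ∧ a ^ 3 = 1 ∧ b ^ 3 = 1 ∧
        a * b = b * a ∧ (((a * b) ^ 3 = 1 ∧ a * b ≠ 1) ∧ (a * b).1.support.card ≠ 3) ∧
        (((a * b⁻¹) ^ 3 = 1 ∧ a * b⁻¹ ≠ 1) ∧ (a * b⁻¹).1.support.card ≠ 3) → b • P u e = P u e := by
      rintro a b ⟨k1, k2, k3, k4, k5, k6, k7, k8⟩
      obtain ⟨w0, w1, w2, w3, w4, e0, e1, e2, rfl, rfl, rfl, rfl⟩ := dec9 mz.two k4 k5 k6 (P u e)
      have ae := he a k2 k3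
      have h1 : P u e + a • P u e + (a * a) • P u e = 0 := by
        rw [← eq, ← eq, mul_smul a a e, ae, ae, ← AddMonoidHom.add_apply, ← AddMonoidHom.add_apply,
          ← map_add, ← map_add, wb_fpf md (add_mem (add_mem hu (smul_mem_Wb _ hu)) (smul_mem_Wb _ hu))
            (ta_of k1) (Ct.fix_nrm k4 u), map_zero, AddMonoidHom.zero_apply]
      rw [h1, zb (tb_of k7) (show (a * b) • w0 = w0 by rw [mul_smul, e2, e1]),
        zb (tb_of k7) (Ct.fix_nrm k7.1.1 _), zb (tb_of k8) (Ct.fix_nrm k8.1.1 _), zero_add, zero_add,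
        add_zero, add_zero] at e0
      rw [e0, Ct.fix_nrm k5]
    refine mz.fpf (y := c0 * s6 [2, 5, 4] * s6 [1, 5, 4]) (Or.inl ?_) ?_
    · haveI := Fact.mk Nat.prime_five
      exact orderOf_eq_prime (by decide +kernel) (by decide +kernel)
    · rw [mul_smul, mul_smul, k (s6 [0, 2, 3]) _ (by decide +kernel),
        k (s6 [0, 1, 3]) _ (by decide +kernel), k a0 _ (by decide +kernel)]
  refine Wa_le md (K := (P u).ker) (fun g e he => ?_) hv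
  show P u (g • e) = 0
  rw [← smul_inv_smul g u, eq, base _ (smul_mem_Wb _ hu) e he, smul_zero]

theorem pair_b (md : Md A6 W) (mz : Md A6 Z) (hZ : Wb Z = ⊥) (P : W →+ W →+ Z)
    (eq : ∀ (g : A6) (u v : W), P (g • u) (g • v) = g • P u v)
    (h0 : ∀ (x : A6) (u v : W), orderOf x = 3 → x • u = u → x • v = v → P u v = 0)
    (u v : W) : P u v = 0 := by
  obtain ⟨φ, h⟩ := exists_swap
  obtain ⟨u1, a1, u2, b1, rfl⟩ := AddSubgroup.mem_sup.1 ((wa_sup_wb md).ge (AddSubgroup.mem_top u))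
  obtain ⟨v1, a2, v2, b2, rfl⟩ := AddSubgroup.mem_sup.1 ((wa_sup_wb md).ge (AddSubgroup.mem_top v))
  have k1 := pair_aa md P eq h0 a1 a2
  have k2 := pair_ba md mz hZ P eq b1 a2
  have k3 : P u1 v2 = 0 := pair_ba md mz hZ P.flip (fun g u v => eq g v u) b2 a1
  have k4 : P u2 v2 = 0 := pair_aa (W := Tws φ W) (Z := Tws φ Z) (md_tw md φ) P (fun g => eq (φ g))
    (fun x u v hx => h0 (φ x) u v (by rwa [φ.orderOf_eq])) ((Wa_tw h).ge b1) ((Wa_tw h).ge b2)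
  simp [k1, k2, k3, k4]

end MA6

/-- An equivariant biadditive map into a module with one class fixed point free, vanishing on pairs
of vectors fixed by one element of order three, is zero. -/
theorem pair_zero (md : Md A6 W) {Z : Type*} [AddCommGroup Z] [DistribMulAction A6 Z]
    (mz : Md A6 Z) (hZ : Wa Z = ⊥ ∨ Wb Z = ⊥) (P : W →+ W →+ Z)
    (eq : ∀ (g : A6) (u v : W), P (g • u) (g • v) = g • P u v)
    (h0 : ∀ (x : A6) (u v : W), orderOf x = 3 → x • u = u → x • v = v → P u v = 0)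
    (u v : W) : P u v = 0 := by
  rcases hZ with hZ | hZ
  · obtain ⟨φ, h⟩ := exists_swap
    exact pair_b (W := Tws φ W) (Z := Tws φ Z) (md_tw md φ) (md_tw mz φ) ((Wb_tw h).trans hZ) P
      (fun g => eq (φ g)) (fun x u v hx => h0 (φ x) u v (by rwa [φ.orderOf_eq])) u v
  · exact pair_b md mz hZ P eq h0 u v

end Cfsg.Agent.Or8
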