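import Mathlib
import Cfsg.Agent.Or8.Defs
import Cfsg.Agent.Or8.Bas

/-! Elementary abelian sections as modules. -/

set_option autoImplicit false
set_option linter.unusedSectionVars false
open Cfsg Subgroup

namespace Cfsg.Agent.Or8

open Cfsg.Agent.K3P Cfsg.Agent.Loc.Mss
open scoped commutatorElement

universe u

variable {G : Type u} [Group G] [Finite G]


variable {Y : Type*} [Group Y] {M Q A B : Subgroup G} {π : M →* Y}

theorem sc_eq_iff {W : Type*} [AddCommGroup W] {ψ : G → W} (add : ∀ a ∈ A, ∀ b ∈ A, ψ (a * b) = ψ a + ψ b)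
    (zero : ∀ a ∈ A, ψ a = 0 ↔ a ∈ B) {a b : G} (ha : a ∈ A) (hb : b ∈ A) : ψ a = ψ b ↔ a⁻¹ * b ∈ B := by
  have h1 := add a ha _ (A.mul_mem (A.inv_mem ha) hb)
  rw [mul_inv_cancel_left] at h1
  rw [← zero _ (A.mul_mem (A.inv_mem ha) hb), h1, left_eq_add]

theorem sc_model (p : Pj M Q π) (s : Se M Q A B) : ∃ (W : Type u) (_ : AddCommGroup W) (_ : Finite W) (ψ : G → W),
    (∀ a ∈ A, ∀ b ∈ A, ψ (a * b) = ψ a + ψ b) ∧ (∀ a ∈ A, ψ a = 0 ↔ a ∈ B) ∧ ∀ w, ∃ a ∈ A, ψ a = w := by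
  classical
  have hn : (B.subgroupOf A).Normal := (normal_subgroupOf_iff_le_normalizer s.BA).2 ((s.AQ.trans p.le).trans s.nB)
  let _ : CommGroup (A ⧸ B.subgroupOf A) := { (inferInstance : Group (A ⧸ B.subgroupOf A)) with
    mul_comm := fun x y => by
      obtain ⟨a, rfl⟩ := QuotientGroup.mk_surjective x
      obtain ⟨b, rfl⟩ := QuotientGroup.mk_surjective y
      rw [← QuotientGroup.mk_mul, ← QuotientGroup.mk_mul, QuotientGroup.eq, mem_subgroupOf]
      have := s.comm _ (s.AQ (A.inv_mem b.2)) _ (A.inv_mem a.2)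
      simpa [mul_assoc] using this }
  refine ⟨Additive (A ⧸ B.subgroupOf A), inferInstance, inferInstance,
    fun g => if h : g ∈ A then Additive.ofMul (QuotientGroup.mk (⟨g, h⟩ : A)) else 0, fun a ha b hb => ?_,
    fun a ha => ?_, fun w => ?_⟩
  · simp only [dif_pos ha, dif_pos hb, dif_pos (A.mul_mem ha hb)]
    rfl
  · simp only [dif_pos ha]
    rw [ofMul_eq_zero, QuotientGroup.eq_one_iff, mem_subgroupOf]
  · obtain ⟨a, ha⟩ := QuotientGroup.mk_surjective (Additive.toMul w)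
    refine ⟨a, a.2, ?_⟩
    simp only [dif_pos a.2]
    rw [ha]
    rfl

theorem exists_sc (h : St G) (p : Pj M Q π) (s : Se M Q A B) :
    ∃ (W : Type u) (_ : AddCommGroup W) (_ : DistribMulAction Y W) (_ : Finite W) (ψ : G → W),
      Sc M A B π ψ ∧ Md Y W := by
  obtain ⟨W, _, _, ψ, add, zero, surj⟩ := sc_model p s
  choose τ hτ hτ' using surj
  choose σ hσ using p.surj
  have cA : ∀ (m : M) {a : G}, a ∈ A → (m : G) * a * (m : G)⁻¹ ∈ A := fun m a ha => conj_mem_of_norm (s.nA m.2) ha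
  let sm : Y → W → W := fun y w => ψ (σ y * τ w * (σ y : G)⁻¹)
  have act : ∀ (m : M) (a : G), a ∈ A → sm (π m) (ψ a) = ψ (m * a * (m : G)⁻¹) := by
    intro m a ha
    refine (sc_eq_iff add zero (cA _ (hτ _)) (cA m ha)).2 ?_
    have h1 : ((σ (π m))⁻¹ * m : M).1 ∈ Q := (p.ker _).1 (by rw [map_mul, map_inv, hσ, inv_mul_cancel])
    have h2 : (τ (ψ a))⁻¹ * a ∈ B := (sc_eq_iff add zero (hτ _) ha).1 (hτ' _)
    have h3 := B.mul_mem (conj_mem_of_norm' (s.nB (p.le (s.AQ (hτ (ψ a))))) (s.comm _ h1 a ha)) h2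
    have h4 := conj_mem_of_norm (s.nB (σ (π m)).2) h3
    convert h4 using 1
    simp only [coe_mul, coe_inv]
    group
  have h0 : ψ 1 = 0 := (zero 1 A.one_mem).2 B.one_mem
  let _ : DistribMulAction Y W :=
    { smul := sm
      one_smul := fun w => by
        change sm 1 w = w
        rw [← hτ' w, ← map_one π, act 1 _ (hτ w)]
        simp
      mul_smul := fun y y' w => by
        change sm (y * y') w = sm y (sm y' w)
        rw [← hτ' w, ← hσ y, ← hσ y', ← map_mul, act _ _ (hτ w), act _ _ (hτ w), act _ _ (cA _ (hτ w))]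
        simp [mul_assoc]
      smul_zero := fun y => by
        change sm y 0 = 0
        rw [← hσ y, ← h0, act _ _ A.one_mem]
        simp
      smul_add := fun y w w' => by
        change sm y (w + w') = sm y w + sm y w'
        rw [← hτ' w, ← hτ' w', ← hσ y, ← add _ (hτ w) _ (hτ w'), act _ _ (hτ w), act _ _ (hτ w'),
          act _ _ (A.mul_mem (hτ w) (hτ w')), ← add _ (cA _ (hτ w)) _ (cA _ (hτ w'))]
        congr 1
        group }
  have act' : ∀ (m : M) (a : G), a ∈ A → ψ (m * a * (m : G)⁻¹) = π m • ψ a := fun m a ha => (act m a ha).symm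
  refine ⟨W, inferInstance, inferInstance, inferInstance, ψ,
    ⟨add, zero, fun w => ⟨τ w, hτ w, hτ' w⟩, act'⟩, fun w => ?_, fun y hy w => ?_⟩
  · rw [← hτ' w, ← add _ (hτ w) _ (hτ w), zero _ (A.mul_mem (hτ w) (hτ w))]
    exact s.sq _ (hτ w)
  · have hl : ∀ m : M, π m = y → (m : G) ^ orderOf y = 1 := by
      intro m hm
      have h1 : orderOf y ∣ orderOf (m : G) := by
        rw [orderOf_coe, ← hm]
        exact orderOf_map_dvd π m
      have h2 := h (m : G)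
      have h3 := orderOf_pos (m : G)
      obtain ⟨c, hc⟩ := h1
      have h4 : c = 1 := by
        rcases c with _ | _ | c
        · omega
        · rfl
        · nlinarith
      rw [h4, mul_one] at hc
      rw [← hc, pow_orderOf_eq_one]
    obtain ⟨m, rfl⟩ := p.surj y
    have ha := hτ w
    rw [← hτ' w]
    generalize τ w = a at ha
    have key : ∀ k : ℕ, (a * m) ^ k * ((m : G) ^ k)⁻¹ ∈ A ∧
        ψ ((a * m) ^ k * ((m : G) ^ k)⁻¹) = ∑ i ∈ Finset.range k, π m ^ i • ψ a := by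
      intro k
      induction k with
      | zero => simpa [A.one_mem] using h0
      | succ k ih =>
        have e : (a * m) ^ (k + 1) * ((m : G) ^ (k + 1))⁻¹ =
            (a * m) ^ k * ((m : G) ^ k)⁻¹ * ((m ^ k : M) * a * ((m ^ k : M) : G)⁻¹) := by
          simp only [coe_pow, pow_succ]
          group
        rw [e, add _ ih.1 _ (cA _ ha), ih.2, act' _ _ ha, map_pow, Finset.sum_range_succ]
        exact ⟨A.mul_mem ih.1 (cA _ ha), rfl⟩
    have h1 := hl (⟨a, p.le (s.AQ ha)⟩ * m) (by rw [map_mul, (p.ker _).2 (s.AQ ha), one_mul])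
    rw [← (key _).2, hl m rfl]
    change ψ (((⟨a, p.le (s.AQ ha)⟩ * m : M) : G) ^ _ * _) = 0
    rw [h1, inv_one, mul_one, h0]

/-- A chief factor on top of the invariant subgroup `A`. -/
theorem exists_below (p : Pj M Q π) (AQ : A ≤ Q) (nA : M ≤ 𝐍[A]) (h1 : A ≠ ⊥) :
    ∃ B : Subgroup G, Se M Q A B ∧ B ≠ A ∧
      ∀ U : Subgroup G, B ≤ U → U ≤ A → M ≤ 𝐍[U] → U = B ∨ U = A := by
  obtain ⟨B, -, hB⟩ := Finite.exists_le_maximal (p := fun U : Subgroup G => U < A ∧ M ≤ 𝐍[U]) (a := ⊥)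
    ⟨bot_lt_iff_ne_bot.2 h1, norm_normal _ _⟩
  obtain ⟨⟨BA, nB⟩, hmax⟩ := hB
  have min : ∀ U : Subgroup G, B ≤ U → U ≤ A → M ≤ 𝐍[U] → U = B ∨ U = A := fun U h2 h3 h4 =>
    h3.eq_or_lt.symm.imp_left fun h5 => le_antisymm (hmax ⟨h5, h4⟩ h2) h2
  have AB : A ≤ 𝐍[B] := (AQ.trans p.le).trans nB
  have comm : ∀ q ∈ Q, ∀ a ∈ A, q * a * q⁻¹ * a⁻¹ ∈ B := by
    obtain ⟨w, wA, wB, hw⟩ := exists_fix p.two (p.two.to_le AQ) BA (p.le.trans nA) (p.le.trans nB) AB
    let U : Subgroup G :=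
      { carrier := {a | a ∈ A ∧ ∀ q ∈ Q, q * a * q⁻¹ * a⁻¹ ∈ B}
        mul_mem' := fun {a b} ha hb => ⟨A.mul_mem ha.1 hb.1, fun q hq => by
          have := B.mul_mem (ha.2 q hq) (conj_mem_of_norm (AB ha.1) (hb.2 q hq))
          convert this using 1
          group⟩
        one_mem' := ⟨A.one_mem, fun q _ => by simp⟩
        inv_mem' := fun {a} ha => ⟨A.inv_mem ha.1, fun q hq => by
          have := conj_mem_of_norm' (AB ha.1) (B.inv_mem (ha.2 q hq))
          convert this using 1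
          group⟩ }
    rcases min U (fun b hb => ⟨BA.le hb, fun q hq => B.mul_mem (conj_mem_of_norm (nB (p.le hq)) hb) (B.inv_mem hb)⟩)
      (fun a ha => ha.1) (le_normalizer_iff.2 fun m hm a ha => ⟨conj_mem_of_norm (nA hm) ha.1, fun q hq => by
        have := conj_mem_of_norm (nB hm) (ha.2 _ (conj_mem_of_norm' (p.norm hm) hq))
        convert this using 1
        group⟩) with h | h
    · exact absurd (h ▸ (⟨wA, hw⟩ : w ∈ U)) wB
    · intro q hq a ha
      exact (h.symm ▸ ha : a ∈ U).2 q hq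
  refine ⟨B, ⟨BA.le, AQ, nA, nB, comm, ?_⟩, BA.ne, min⟩
  let U : Subgroup G :=
    { carrier := {a | a ∈ A ∧ a * a ∈ B}
      mul_mem' := fun {a b} ha hb => ⟨A.mul_mem ha.1 hb.1, by
        have := B.mul_mem (B.mul_mem (conj_mem_of_norm (AB ha.1) (comm _ (AQ hb.1) _ ha.1)) ha.2) hb.2
        convert this using 1
        group⟩
      one_mem' := ⟨A.one_mem, by simp⟩
      inv_mem' := fun {a} ha => ⟨A.inv_mem ha.1, by rw [← mul_inv_rev]; exact B.inv_mem ha.2⟩ }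
  rcases min U (fun b hb => ⟨BA.le hb, B.mul_mem hb hb⟩) (fun a ha => ha.1)
    (le_normalizer_iff.2 fun m hm a ha => ⟨conj_mem_of_norm (nA hm) ha.1, by
      have := conj_mem_of_norm (nB hm) ha.2
      convert this using 1
      group⟩) with h | h
  · exfalso
    obtain ⟨w, wA, wB⟩ := SetLike.exists_of_lt BA
    obtain ⟨k, hk⟩ := tw_of_mem p.two (AQ wA)
    have key : ∀ j : ℕ, w ^ 2 ^ j ∉ B := by
      intro j
      induction j with
      | zero => simpa using wB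
      | succ j ih =>
        intro h2
        rw [pow_succ, pow_mul, sq] at h2
        exact ih (h ▸ (⟨A.pow_mem wA _, h2⟩ : w ^ 2 ^ j ∈ U))
    exact key k (hk ▸ B.one_mem)
  · intro a ha
    exact (h.symm ▸ ha : a ∈ U).2

theorem exists_chief (p : Pj M Q π) {e : G} (he : e ∈ Q) (h1 : e ≠ 1) :
    ∃ A B : Subgroup G, Se M Q A B ∧ e ∈ A ∧ e ∉ B := by
  obtain ⟨A, -, ⟨eA, AQ, nA⟩, hmin⟩ := Finite.exists_le_minimal
    (p := fun U : Subgroup G => e ∈ U ∧ U ≤ Q ∧ M ≤ 𝐍[U]) (a := Q) ⟨he, le_rfl, p.norm⟩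
  obtain ⟨B, s, hne, -⟩ := exists_below p AQ nA fun h => h1 (mem_bot.1 (h ▸ eA))
  exact ⟨A, B, s, eA, fun eB => hne (le_antisymm s.BA (hmin ⟨eB, s.BA.trans AQ, s.nB⟩ s.BA))⟩

/-- A minimal normal subgroup inside `Q`. -/
theorem exists_min (p : Pj M Q π) (h1 : Q ≠ ⊥) :
    ∃ A : Subgroup G, Se M Q A ⊥ ∧ A ≠ ⊥ ∧
      ∀ U : Subgroup G, U ≤ A → M ≤ 𝐍[U] → U = ⊥ ∨ U = A := by
  obtain ⟨A, -, ⟨hA, AQ, nA⟩, hmin⟩ := Finite.exists_le_minimal
    (p := fun U : Subgroup G => U ≠ ⊥ ∧ U ≤ Q ∧ M ≤ 𝐍[U]) (a := Q) ⟨h1, le_rfl, p.norm⟩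
  obtain ⟨B, s, hne, min⟩ := exists_below p AQ nA hA
  obtain rfl : B = ⊥ := by
    by_contra hB
    exact hne (le_antisymm s.BA (hmin ⟨hB, s.BA.trans AQ, s.nB⟩ s.BA))
  exact ⟨A, s, hA, fun U => min U bot_le⟩

theorem fpf_of_md (h : St G) (p : Pj M Q π) {x : M}
    (hx : ∀ (W : Type u) [AddCommGroup W] [DistribMulAction Y W] [Finite W], Md Y W →
      ∀ w : W, π x • w = w → w = 0) : Q ⊓ Cn (x : G) = ⊥ := by
  refine (eq_bot_iff_forall _).2 fun e he => ?_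
  by_contra h1
  obtain ⟨A, B, s, eA, eB⟩ := exists_chief p he.1 h1
  obtain ⟨W, _, _, _, ψ, c, md⟩ := exists_sc h p s
  refine eB ((c.zero e eA).1 (hx W md _ ?_))
  rw [← c.act x e eA, (mem_Cn.1 he.2).eq, mul_inv_cancel_right]

theorem triv_of_md (h : St G) (p : Pj M Q π)
    (hx : ∀ (W : Type u) [AddCommGroup W] [DistribMulAction Y W] [Finite W], Md Y W →
      ∀ w : W, w = 0) : Q = ⊥ := by
  refine (eq_bot_iff_forall _).2 fun e he => ?_
  by_contra h1
  obtain ⟨A, B, s, eA, eB⟩ := exists_chief p he h1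
  obtain ⟨W, _, _, _, ψ, c, md⟩ := exists_sc h p s
  exact eB ((c.zero e eA).1 (hx W md _))

variable {W : Type*} [AddCommGroup W] [DistribMulAction Y W] {ψ : G → W}

theorem Sc.eq_iff (c : Sc M A B π ψ) (s : Se M Q A B) {a b : G} (ha : a ∈ A) (hb : b ∈ A) :
    ψ a = ψ b ↔ a⁻¹ * b ∈ B := sc_eq_iff c.add c.zero ha hb

theorem Sc.lift (c : Sc M A B π ψ) (p : Pj M Q π) (s : Se M Q A B) {x : M}
    (hx : orderOf (x : G) = 3) {w : W} (hw : π x • w = w) :
    ∃ a ∈ A, Commute (x : G) a ∧ ψ a = w := by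
  obtain ⟨a, ha, rfl⟩ := c.surj w
  obtain ⟨q, hq, h1⟩ := exists_cn (p.two.to_le (s.BA.trans s.AQ)) hx (s.nB x.2) (s.nB (p.le (s.AQ ha)))
    ((c.eq_iff s ha (conj_mem_of_norm (s.nA x.2) ha)).1 (by rw [c.act x a ha, hw]))
  refine ⟨a * q, A.mul_mem ha (s.BA hq), h1, ?_⟩
  rw [c.add a ha q (s.BA hq), (c.zero q (s.BA hq)).2 hq, add_zero]

theorem Sc.card (c : Sc M A B π ψ) (s : Se M Q A B) :
    Nat.card A = Nat.card W * Nat.card B := by
  let f : A →* Multiplicative W := MonoidHom.mk' (fun a => Multiplicative.ofAdd (ψ a)) fun a b => by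
    rw [coe_mul, c.add _ a.2 _ b.2, ofAdd_add]
  have hf : Function.Surjective f := fun w => by
    obtain ⟨a, ha, h⟩ := c.surj w.toAdd
    exact ⟨⟨a, ha⟩, congrArg Multiplicative.ofAdd h⟩
  have hk : f.ker = B.subgroupOf A := by
    ext a
    rw [MonoidHom.mem_ker, mem_subgroupOf, ← c.zero a a.2]
    exact ofAdd_eq_one
  rw [← f.ker.index_mul_card, index_ker, MonoidHom.range_eq_top.2 hf, card_top, hk,
    Nat.card_congr (subgroupOfEquivOfLe s.BA).toEquiv]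
  rfl

theorem Sc.irr (c : Sc M A B π ψ) (p : Pj M Q π) (s : Se M Q A B)
    (min : ∀ U : Subgroup G, B ≤ U → U ≤ A → M ≤ 𝐍[U] → U = B ∨ U = A) (U : AddSubgroup W)
    (hU : ∀ y : Y, ∀ w ∈ U, y • w ∈ U) : U = ⊥ ∨ U = ⊤ := by
  have h0 : ψ 1 = 0 := (c.zero 1 A.one_mem).2 B.one_mem
  let U' : Subgroup G :=
    { carrier := {a | a ∈ A ∧ ψ a ∈ U}
      mul_mem' := fun {a b} ha hb => ⟨A.mul_mem ha.1 hb.1, by
        rw [c.add a ha.1 b hb.1]
        exact U.add_mem ha.2 hb.2⟩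
      one_mem' := ⟨A.one_mem, h0 ▸ U.zero_mem⟩
      inv_mem' := fun {a} ha => ⟨A.inv_mem ha.1, by
        have h1 := c.add a ha.1 _ (A.inv_mem ha.1)
        rw [mul_inv_cancel, h0] at h1
        rw [← neg_eq_of_add_eq_zero_right h1.symm]
        exact U.neg_mem ha.2⟩ }
  rcases min U' (fun b hb => ⟨s.BA hb, ((c.zero b (s.BA hb)).2 hb).symm ▸ U.zero_mem⟩) (fun a ha => ha.1)
    (le_normalizer_iff.2 fun m hm a ha => ⟨conj_mem_of_norm (s.nA hm) ha.1, by
      rw [c.act ⟨m, hm⟩ a ha.1]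
      exact hU _ _ ha.2⟩) with h | h
  · refine Or.inl ((AddSubgroup.eq_bot_iff_forall _).2 fun w hw => ?_)
    obtain ⟨a, ha, rfl⟩ := c.surj w
    exact (c.zero a ha).2 (h ▸ (⟨ha, hw⟩ : a ∈ U'))
  · refine Or.inr ((AddSubgroup.eq_top_iff' _).2 fun w => ?_)
    obtain ⟨a, ha, rfl⟩ := c.surj w
    exact (h.symm ▸ ha : a ∈ U').2

end Cfsg.Agent.Or8
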