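import Mathlib
import Cfsg.Agent.Or8.Defs
import Cfsg.Agent.Or8.MA6
import Cfsg.Agent.Or8.Sc

/-! A 2-group normalised by `A6` is elementary abelian. -/

set_option autoImplicit false
set_option linter.unusedSectionVars false
open Cfsg Subgroup

namespace Cfsg.Agent.Or8

open Cfsg.Agent.K3P Cfsg.Agent.Loc.Mss
open scoped commutatorElement

universe u

variable {G : Type u} [Group G] [Finite G]

theorem a6e_ta {a : A6} (h : Ta a) : orderOf a = 3 := by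
  rw [← orderOf_coe]
  exact h.orderOf

theorem a6e_tb {a : A6} (h : Tb a) : orderOf a = 3 := by
  rw [← orderOf_coe, ← Equiv.Perm.lcm_cycleType, h]
  decide

theorem a6e_alt {W : Type*} [AddCommGroup W] [DistribMulAction A6 W] (md : Md A6 W)
    (h : Wa W = ⊥ ∨ Wa W = ⊤) : Wa W = ⊥ ∨ Wb W = ⊥ := by
  refine h.imp_right fun e => ?_
  have := wa_inf_wb md
  rwa [e, top_inf_eq] at this

/-- Fixed vectors lift to commuting involutions. -/
theorem a6e_lift (h : St G) {M Q B : Subgroup G} {π : M →* A6} (p : Pj M Q π) (s : Se M Q Q B)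
    {W : Type*} [AddCommGroup W] [DistribMulAction A6 W] {ψ : G → W} (c : Sc M Q B π ψ) {x : A6}
    (hx : orderOf x = 3) : ∃ E : Subgroup G, E ≤ Q ∧ IsElementaryAbelian 2 E ∧
      ∀ w : W, x • w = w → ∃ a ∈ E, ψ a = w := by
  obtain ⟨m, rfl, hm⟩ := p.lift (y := x) (by rw [hx]; decide)
  rw [hx] at hm
  refine ⟨Q ⊓ Cn (m : G), inf_le_left, h.el_of_three hm (p.two.to_le inf_le_left) inf_le_right,
    fun w hw => ?_⟩
  obtain ⟨a, ha, h1, h2⟩ := c.lift p s hm hw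
  exact ⟨a, ⟨ha, mem_Cn.2 h1⟩, h2⟩

/-- Commutators lie one chief factor deeper. -/
theorem a6e_comm (h : St G) {M Q B B' : Subgroup G} {π : M →* A6} (p : Pj M Q π)
    (s : Se M Q Q B) (s' : Se M Q B B')
    (min : ∀ U : Subgroup G, B' ≤ U → U ≤ B → M ≤ 𝐍[U] → U = B' ∨ U = B) {a b : G} (ha : a ∈ Q)
    (hb : b ∈ Q) : a * b * a⁻¹ * b⁻¹ ∈ B' := by
  obtain ⟨W, _, _, _, ψ, c, md⟩ := exists_sc h p s
  obtain ⟨Z, _, _, _, χ, d, mz⟩ := exists_sc h p s'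
  have hZ := a6e_alt mz (d.irr p s' min (Wa Z) fun y w hw => smul_mem_Wa y hw)
  let f : G → G → Z := fun q r => χ (q * r * q⁻¹ * r⁻¹)
  have cj : ∀ q ∈ Q, ∀ z ∈ B, χ (q * z * q⁻¹) = χ z := fun q hq z hz => by
    have := d.act ⟨q, p.le hq⟩ z hz
    rwa [(p.ker _).2 hq, one_smul] at this
  have cB : ∀ q ∈ Q, ∀ z ∈ B, q * z * q⁻¹ ∈ B := fun q hq z hz =>
    conj_mem_of_norm (s.nB (p.le hq)) hz
  have l1 : ∀ q ∈ Q, ∀ q' ∈ Q, ∀ r ∈ Q, f (q * q') r = f q r + f q' r := fun q hq q' hq' r hr => by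
    simp only [f]
    rw [show q * q' * r * (q * q')⁻¹ * r⁻¹ =
      q * (q' * r * q'⁻¹ * r⁻¹) * q⁻¹ * (q * r * q⁻¹ * r⁻¹) by group,
      d.add _ (cB q hq _ (s.comm _ hq' _ hr)) _ (s.comm _ hq _ hr), cj q hq _ (s.comm _ hq' _ hr),
      add_comm]
  have l2 : ∀ q ∈ Q, ∀ r ∈ Q, ∀ r' ∈ Q, f q (r * r') = f q r + f q r' := fun q hq r hr r' hr' => by
    simp only [f]
    rw [show q * (r * r') * q⁻¹ * (r * r')⁻¹ =
      q * r * q⁻¹ * r⁻¹ * (r * (q * r' * q⁻¹ * r'⁻¹) * r⁻¹) by group,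
      d.add _ (s.comm _ hq _ hr) _ (cB r hr _ (s.comm _ hq _ hr')), cj r hr _ (s.comm _ hq _ hr')]
  have z1 : ∀ z ∈ B, ∀ r ∈ Q, f z r = 0 := fun z hz r hr =>
    (d.zero _ (s.comm _ (s.BA hz) _ hr)).2 (by
      have := inv_mem (s'.comm r hr z hz)
      convert this using 1
      group)
  have z2 : ∀ q ∈ Q, ∀ z ∈ B, f q z = 0 := fun q hq z hz =>
    (d.zero _ (s.comm _ hq _ (s.BA hz))).2 (s'.comm q hq z hz)
  have wd : ∀ q ∈ Q, ∀ q' ∈ Q, ∀ r ∈ Q, ∀ r' ∈ Q, ψ q = ψ q' → ψ r = ψ r' → f q r = f q' r' :=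
    fun q hq q' hq' r hr r' hr' e1 e2 => by
      have k1 := (c.eq_iff s hq hq').1 e1
      have k2 := (c.eq_iff s hr hr').1 e2
      have k3 := l1 q hq _ (s.BA k1) r' hr'
      have k4 := l2 q hq r hr _ (s.BA k2)
      rw [mul_inv_cancel_left] at k3 k4
      rw [k3, k4, z1 _ k1 _ hr', z2 _ hq _ k2, add_zero, add_zero]
  choose τ hτ hτ' using c.surj
  let P : W →+ W →+ Z := AddMonoidHom.mk' (fun u => AddMonoidHom.mk' (fun v => f (τ u) (τ v))
    fun v v' => by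
      rw [← l2 _ (hτ u) _ (hτ v) _ (hτ v')]
      exact wd _ (hτ _) _ (hτ _) _ (hτ _) _ (mul_mem (hτ _) (hτ _)) rfl
        (by rw [c.add _ (hτ _) _ (hτ _), hτ', hτ', hτ']))
    fun u u' => by
      ext v
      simp only [AddMonoidHom.mk'_apply, AddMonoidHom.add_apply]
      rw [← l1 _ (hτ u) _ (hτ u') _ (hτ v)]
      exact wd _ (hτ _) _ (mul_mem (hτ _) (hτ _)) _ (hτ _) _ (hτ _)
        (by rw [c.add _ (hτ _) _ (hτ _), hτ', hτ', hτ']) rfl
  have hP : ∀ q ∈ Q, ∀ r ∈ Q, P (ψ q) (ψ r) = f q r := fun q hq r hr =>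
    wd _ (hτ _) _ hq _ (hτ _) _ hr (hτ' _) (hτ' _)
  have key := pair_zero md mz hZ P (fun g u v => by
      obtain ⟨m, rfl⟩ := p.surj g
      rw [← hτ' u, ← hτ' v, ← c.act m _ (hτ u), ← c.act m _ (hτ v), hP _ (hτ u) _ (hτ v),
        hP _ (conj_mem_of_norm (s.nA m.2) (hτ u)) _ (conj_mem_of_norm (s.nA m.2) (hτ v))]
      simp only [f]
      rw [← d.act m _ (s.comm _ (hτ u) _ (hτ v))]
      congr 1
      group)
    (fun x u v hx hu hv => by
      obtain ⟨E, EQ, el, hE⟩ := a6e_lift h p s c hx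
      obtain ⟨q, hq, rfl⟩ := hE u hu
      obtain ⟨r, hr, rfl⟩ := hE v hv
      rw [hP _ (EQ hq) _ (EQ hr)]
      simp only [f]
      rw [(el_comm el hq hr).eq, mul_inv_cancel_right, mul_inv_cancel]
      exact (d.zero 1 B.one_mem).2 B'.one_mem) (ψ a) (ψ b)
  rw [hP a ha b hb] at key
  exact (d.zero _ (s.comm _ ha _ hb)).1 key

/-- Squares lie one chief factor deeper. -/
theorem a6e_sq (h : St G) {M Q B B' : Subgroup G} {π : M →* A6} (p : Pj M Q π)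
    (s : Se M Q Q B) (s' : Se M Q B B')
    (cm : ∀ a ∈ Q, ∀ b ∈ Q, a * b * a⁻¹ * b⁻¹ ∈ B') {q : G} (hq : q ∈ Q) : q * q ∈ B' := by
  obtain ⟨W, _, _, _, ψ, c, md⟩ := exists_sc h p s
  have mul : ∀ a ∈ Q, ∀ b ∈ Q, a * a ∈ B' → b * b ∈ B' → a * b * (a * b) ∈ B' :=
    fun a ha b hb h1 h2 => by
      have := mul_mem (mul_mem h1 (cm _ (inv_mem ha) _ hb)) h2
      convert this using 1
      group
  let U : AddSubgroup W :=
    { carrier := {w | ∃ a ∈ Q, a * a ∈ B' ∧ ψ a = w}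
      add_mem' := by
        rintro _ _ ⟨a, ha, h1, rfl⟩ ⟨b, hb, h2, rfl⟩
        exact ⟨a * b, mul_mem ha hb, mul a ha b hb h1 h2, c.add a ha b hb⟩
      zero_mem' := ⟨1, one_mem _, by simp, (c.zero 1 Q.one_mem).2 B.one_mem⟩
      neg_mem' := by
        rintro _ ⟨a, ha, h1, rfl⟩
        exact ⟨a, ha, h1, (neg_eq_of_add_eq_zero_right (md.two _)).symm⟩ }
  have k : ∀ x : A6, orderOf x = 3 → ∀ w : W, x • w = w → w ∈ U := fun x hx w hw => by
    obtain ⟨E, EQ, el, hE⟩ := a6e_lift h p s c hx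
    obtain ⟨a, ha, rfl⟩ := hE w hw
    exact ⟨a, EQ ha, by rw [el_sq el ha]; exact one_mem _, rfl⟩
  have top : ⊤ ≤ U := by
    rw [← wa_sup_wb md]
    refine sup_le ((AddSubgroup.closure_le _).2 ?_) ((AddSubgroup.closure_le _).2 ?_)
    · rintro w ⟨a, ha, hw⟩
      exact k a (a6e_ta ha) w hw
    · rintro w ⟨a, ha, hw⟩
      exact k a (a6e_tb ha) w hw
  obtain ⟨a, ha, h1, e⟩ := top (AddSubgroup.mem_top (ψ q))
  have k1 := (c.eq_iff s ha hq).1 e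
  have := mul a ha _ (s.BA k1) h1 (s'.sq _ k1)
  rwa [mul_inv_cancel_left] at this

theorem a6_el (h : St G) {M Q : Subgroup G} {π : M →* A6} (p : Pj M Q π) :
    IsElementaryAbelian 2 Q := by
  obtain ⟨B, -, s, hmin⟩ := Finite.exists_le_minimal (p := fun U : Subgroup G => Se M Q Q U)
    (a := Q) ⟨le_rfl, le_rfl, p.norm, p.norm, fun q hq a ha =>
      mul_mem (mul_mem (mul_mem hq ha) (inv_mem hq)) (inv_mem ha), fun a ha => mul_mem ha ha⟩
  by_cases h1 : B = ⊥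
  · subst h1
    exact el_of_sq fun a ha => mem_bot.1 (s.sq a ha)
  obtain ⟨B', s', hne, min⟩ := exists_below p s.BA s.nB h1
  have cm : ∀ a ∈ Q, ∀ b ∈ Q, a * b * a⁻¹ * b⁻¹ ∈ B' := fun a ha b hb =>
    a6e_comm h p s s' min ha hb
  exact absurd (le_antisymm s'.BA (hmin ⟨s'.BA.trans s.BA, le_rfl, p.norm, s'.nB, cm,
    fun a ha => a6e_sq h p s s' cm ha⟩ s'.BA)) hne

theorem a6_fpf (h : St G) {M Q : Subgroup G} {π : M →* A6} (p : Pj M Q π)
    (h16 : Nat.card Q = 16) :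
    (∀ x : M, Ta (π x) → Q ⊓ Cn (x : G) = ⊥) ∨ (∀ x : M, Tb (π x) → Q ⊓ Cn (x : G) = ⊥) := by
  have el := a6_el h p
  have s : Se M Q Q ⊥ := ⟨bot_le, le_rfl, p.norm, norm_normal _ _, fun q hq a ha => by
    rw [(el_comm el hq ha).eq, mul_inv_cancel_right, mul_inv_cancel]
    exact one_mem _, fun a ha => mem_bot.2 (el_sq el ha)⟩
  obtain ⟨W, _, _, _, ψ, c, md⟩ := exists_sc h p s
  have := Fact.mk Nat.prime_five
  obtain ⟨y, hy⟩ := exists_prime_orderOf_dvd_card' (G := A6) 5 (by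
    rw [nat_card_alternatingGroup, Nat.card_eq_fintype_card, Fintype.card_fin]
    decide)
  obtain ⟨m, -, hm⟩ := p.lift (y := y) (by rw [hy]; decide)
  rw [hy] at hm
  have min : ∀ U : Subgroup G, ⊥ ≤ U → U ≤ Q → M ≤ 𝐍[U] → U = ⊥ ∨ U = Q := fun U _ UQ hn => by
    obtain ⟨k, hk⟩ := h.card_five hm (p.two.to_le UQ) (hn m.2)
    rcases k with _ | k
    · exact Or.inl (card_eq_one.1 hk)
    · refine Or.inr (eq_of_le_of_card_ge UQ ?_)
      rw [h16, hk, pow_succ]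
      exact Nat.le_mul_of_pos_left _ (by positivity)
  have fx : ∀ x : M, ∀ e ∈ Q ⊓ Cn (x : G), π x • ψ e = ψ e := fun x e he => by
    rw [← c.act x e he.1, (mem_Cn.1 he.2).eq, mul_inv_cancel_right]
  refine (a6e_alt md (c.irr p s min (Wa W) fun y w hw => smul_mem_Wa y hw)).imp
    (fun e x hx => eq_bot_iff.2 fun a ha => (c.zero a ha.1).1 ?_)
    (fun e x hx => eq_bot_iff.2 fun a ha => (c.zero a ha.1).1 ?_)
  · exact AddSubgroup.mem_bot.1 (e ▸ AddSubgroup.subset_closure ⟨π x, hx, fx x a ha⟩)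
  · exact AddSubgroup.mem_bot.1 (e ▸ AddSubgroup.subset_closure ⟨π x, hx, fx x a ha⟩)

end Cfsg.Agent.Or8
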