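import Mathlib
import Cfsg.Agent.Or8.Defs
import Cfsg.Agent.Or8.MS5

/-! The Frobenius group of order 21 on a module, and the group `A7`. -/

set_option autoImplicit false
set_option linter.unusedSectionVars false
open Cfsg Subgroup

namespace Cfsg.Agent.Or8

open Cfsg.Agent.K3P Cfsg.Agent.Loc.Mss
open scoped commutatorElement

universe u

variable {W : Type*} [AddCommGroup W]

theorem Cube.aux (two : ∀ w : W, w + w = 0) (F X : W →+ W) (xf : ∀ v, X (F v) = F (F (X v)))
    (x3 : ∀ v, X (X (X v)) = v) (f7 : ∀ v, F (F (F (F (F (F (F v)))))) = v)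
    (nm : ∀ v, v + F v + F (F v) + F (F (F v)) + F (F (F (F v))) + F (F (F (F (F v)))) +
      F (F (F (F (F (F v))))) = 0) : Nat.card W = Nat.card {w : W // X w = w} ^ 3 := by
  letI : Module (ZMod 2) W := AddCommGroup.zmodModule fun w => by rw [two_nsmul, two]
  let N : W → {w : W // X w = w} := fun w => ⟨w + X w + X (X w), by rw [map_add, map_add, x3]; abel⟩
  let e : W ≃ {w : W // X w = w} × {w : W // X w = w} × {w : W // X w = w} :=
    { toFun := fun w => (N (F w + F (F (F w))), N (F w + F (F (F (F w)))), N (F (F w) + F (F (F (F w)))))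
      invFun := fun v => v.1 + F v.2.1 + F (F v.2.2)
      left_inv := fun w => by
        simp only [N, map_add, xf, f7]
        linear_combination (norm := (match_scalars <;> decide)) (1 : ZMod 2) • nm w
      right_inv := fun ⟨⟨a, ha⟩, ⟨b, hb⟩, ⟨c, hc⟩⟩ => by
        refine Prod.ext (Subtype.ext ?_) (Prod.ext (Subtype.ext ?_) (Subtype.ext ?_)) <;>
          simp only [N, map_add, xf, f7, ha, hb, hc]
        · linear_combination (norm := (match_scalars <;> decide)) (1 : ZMod 2) • nm a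
        · linear_combination (norm := (match_scalars <;> decide)) (1 : ZMod 2) • nm b
        · linear_combination (norm := (match_scalars <;> decide)) (1 : ZMod 2) • nm c }
  rw [Nat.card_congr e, Nat.card_prod, Nat.card_prod]
  ring

theorem Cube.aux2 {Y : Type*} [Group Y] [DistribMulAction Y W] (md : Md Y W) {f x : Y} (hf : orderOf f = 7)
    (hx : x ^ 3 = 1) (e : x * f = f * f * x) : Nat.card W = Nat.card {w : W // x • w = w} ^ 3 := by
  have f7 : f ^ 7 = 1 := hf ▸ pow_orderOf_eq_one f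
  refine Cube.aux md.two (DistribSMul.toAddMonoidHom W f) (DistribSMul.toAddMonoidHom W x) (fun v => ?_)
    (fun v => ?_) (fun v => ?_) fun v => ?_
  · simp only [DistribSMul.toAddMonoidHom_apply, ← mul_smul, e, mul_assoc]
  · simp only [DistribSMul.toAddMonoidHom_apply, ← mul_smul, ← pow_three, hx, one_smul]
  · have := congrArg (· • v) f7
    simpa only [DistribSMul.toAddMonoidHom_apply, pow_succ', pow_zero, mul_smul, one_smul] using this
  · have := md.seven f7 (fun e => by rw [e, orderOf_one] at hf; omega) v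
    simpa only [DistribSMul.toAddMonoidHom_apply, pow_succ', pow_zero, mul_smul, one_smul] using this

theorem Md.cube {Y : Type*} [Group Y] [DistribMulAction Y W] [Finite W] (md : Md Y W) {f x : Y}
    (hf : orderOf f = 7) (hx : orderOf x = 3) (xf : x ∈ 𝐍[zpowers f]) (nc : ¬ Commute x f) :
    Nat.card W = Nat.card {w : W // x • w = w} ^ 3 := by
  classical
  have x3 : x ^ 3 = 1 := hx ▸ pow_orderOf_eq_one x
  have fo : IsOfFinOrder f := orderOf_pos_iff.1 (by omega)
  obtain ⟨k, hk, e⟩ := Finset.mem_image.1 (fo.mem_zpowers_iff_mem_range_orderOf.1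
    (conj_mem_of_norm xf (mem_zpowers f)))
  rw [hf, Finset.mem_range] at hk
  have e3 : f ^ (k * k * k) = f ^ 1 := by
    calc _ = x * (x * (x * f * x⁻¹) * x⁻¹) * x⁻¹ := by
          rw [← e, ← conj_pow, ← e, ← pow_mul, ← conj_pow, ← e, ← pow_mul, mul_assoc]
      _ = x ^ 3 * f * (x ^ 3)⁻¹ := by rw [pow_three]; group
      _ = _ := by rw [x3, one_mul, inv_one, mul_one, pow_one]
  rw [pow_eq_pow_iff_modEq, hf] at e3
  have e' : x * f = f ^ k * x := by rw [e, inv_mul_cancel_right]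
  have : k = 1 ∨ k = 2 ∨ k = 4 := by interval_cases k <;> simp_all [Nat.ModEq]
  rcases this with rfl | rfl | rfl
  · exact (nc (by rwa [pow_one] at e')).elim
  · exact Cube.aux2 md hf x3 (by rw [e', sq])
  · rw [Cube.aux2 md hf (x := x * x) (by rw [← sq, ← pow_mul, mul_comm, pow_mul, x3, one_pow]) (by
      calc _ = x * (x * f * x⁻¹) * x⁻¹ * (x * x) := by group
        _ = f ^ (2 + 7 * 2) * (x * x) := by rw [← e, ← conj_pow, ← e, ← pow_mul]
        _ = _ := by rw [pow_add, pow_mul, ← hf, pow_orderOf_eq_one, one_pow, mul_one, sq])]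
    have k : ∀ w : W, (x * x) • w = w ↔ x • w = w := fun w =>
      ⟨fun h => by rw [← h, ← mul_smul, ← pow_three, x3, one_smul, h], fun h => by rw [mul_smul, h, h]⟩
    rw [Nat.card_congr (Equiv.subtypeEquivRight k)]

theorem Cube.nfix {Y : Type*} [Group Y] [DistribMulAction Y W] {c d : Y} (hc : c ^ 3 = 1) (h : Commute d c) {w : W}
    (hw : d • w = w) : c • (w + c • w + c • c • w) = w + c • w + c • c • w ∧
      d • (w + c • w + c • c • w) = w + c • w + c • c • w := by
  have k : ∀ v : W, d • c • v = c • d • v := fun v => by rw [← mul_smul, h.eq, mul_smul]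
  refine ⟨?_, by simp only [smul_add, k, hw]⟩
  rw [smul_add, smul_add, ← mul_smul c c (c • w), ← mul_smul (c * c), ← pow_three', hc, one_smul]
  abel

/-- Four pairwise independent fixed subgroups. -/
theorem four_le {Y : Type*} [Group Y] [DistribMulAction Y W] [Finite W]
    (two : ∀ w : W, w + w = 0) {a b : Y} (ha : a ^ 3 = 1) (hb : b ^ 3 = 1) (hc : Commute a b)
    (h0 : ∀ w : W, a • w = w → b • w = w → w = 0) :
    Nat.card W = Nat.card {w : W // a • w = w} * Nat.card {w : W // b • w = w} *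
      Nat.card {w : W // (a * b) • w = w} * Nat.card {w : W // (a * b⁻¹) • w = w} := by
  rw [← Nat.card_prod, ← Nat.card_prod, ← Nat.card_prod]
  have ab : (a * b) ^ 3 = 1 := by rw [hc.mul_pow, ha, hb, one_mul]
  have ab' : (a * b⁻¹) ^ 3 = 1 := by rw [hc.inv_right.mul_pow, ha, inv_pow, hb, inv_one, one_mul]
  have c1 : Commute (a * b) a := (Commute.refl a).mul_left hc.symm
  have c2 : Commute (a * b⁻¹) a := (Commute.refl a).mul_left hc.symm.inv_left
  have c3 : Commute (a * b) b := hc.mul_left (Commute.refl b)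
  have c4 : Commute (a * b⁻¹) b := hc.mul_left (Commute.refl b).inv_left
  have k1 : ∀ w : W, a • w = w → (a * b) • w = w → w = 0 := fun w h1 h2 =>
    h0 w h1 (by rwa [hc.eq, mul_smul, h1] at h2)
  have k2 : ∀ w : W, a • w = w → (a * b⁻¹) • w = w → w = 0 := fun w h1 h2 =>
    h0 w h1 (by rwa [hc.inv_right.eq, mul_smul, h1, inv_smul_eq_iff, eq_comm] at h2)
  have k3 : ∀ w : W, b • w = w → (a * b) • w = w → w = 0 := fun w h1 h2 => h0 w (by rwa [mul_smul, h1] at h2) h1
  have k4 : ∀ w : W, b • w = w → (a * b⁻¹) • w = w → w = 0 := fun w h1 h2 =>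
    h0 w (by rwa [mul_smul, inv_smul_eq_iff.2 h1.symm] at h2) h1
  have k5 : ∀ w : W, (a * b) • w = w → (a * b⁻¹) • w = w → w = 0 := fun w h1 h2 => k3 w (by
    have h3 : b • b • w = w := by
      have := h1.trans h2.symm
      rwa [mul_smul, mul_smul, smul_left_cancel_iff, eq_inv_smul_iff] at this
    rw [← h3, ← mul_smul, ← mul_smul, ← pow_three', hb, one_smul, h3]) h1
  have key : ∀ w1 w2 w3 w4 : W, a • w1 = w1 → b • w2 = w2 → (a * b) • w3 = w3 → (a * b⁻¹) • w4 = w4 →
      w1 + w2 + w3 + w4 = 0 → w1 = 0 ∧ w2 = 0 ∧ w3 = 0 ∧ w4 = 0 := fun w1 w2 w3 w4 h1 h2 h3 h4 e => by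
    have n : ∀ c : Y, (w1 + c • w1 + c • c • w1) + (w2 + c • w2 + c • c • w2) + (w3 + c • w3 + c • c • w3) +
        (w4 + c • w4 + c • c • w4) = 0 := fun c => by
      calc _ = (w1 + w2 + w3 + w4) + c • (w1 + w2 + w3 + w4) + c • c • (w1 + w2 + w3 + w4) := by
            simp only [smul_add]; abel
        _ = 0 := by rw [e, smul_zero, smul_zero, add_zero, add_zero]
    have e1 := n a
    rw [h0 _ (Cube.nfix ha hc.symm h2).1 (Cube.nfix ha hc.symm h2).2, k1 _ (Cube.nfix ha c1 h3).1 (Cube.nfix ha c1 h3).2,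
      k2 _ (Cube.nfix ha c2 h4).1 (Cube.nfix ha c2 h4).2, h1, h1, two, zero_add, add_zero, add_zero, add_zero] at e1
    have e2 := n b
    rw [h0 _ (Cube.nfix hb hc h1).2 (Cube.nfix hb hc h1).1, k3 _ (Cube.nfix hb c3 h3).1 (Cube.nfix hb c3 h3).2,
      k4 _ (Cube.nfix hb c4 h4).1 (Cube.nfix hb c4 h4).2, h2, h2, two, zero_add, zero_add, add_zero, add_zero] at e2
    rw [e1, e2, zero_add, zero_add, ← two w4, add_left_inj] at e
    exact ⟨e1, e2, k5 _ h3 (e ▸ h4), k5 _ (e ▸ h3) h4⟩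
  refine (Nat.card_eq_of_bijective (fun v => v.1.1.1.1 + v.1.1.2.1 + v.1.2.1 + v.2.1) ⟨?_, fun w => ?_⟩).symm
  · rintro ⟨⟨⟨⟨w1, h1⟩, ⟨w2, h2⟩⟩, ⟨w3, h3⟩⟩, ⟨w4, h4⟩⟩ ⟨⟨⟨⟨v1, g1⟩, ⟨v2, g2⟩⟩, ⟨v3, g3⟩⟩, ⟨v4, g4⟩⟩ e
    obtain ⟨e1, e2, e3, e4⟩ := key (w1 - v1) (w2 - v2) (w3 - v3) (w4 - v4) (by rw [smul_sub, h1, g1])
      (by rw [smul_sub, h2, g2]) (by rw [smul_sub, h3, g3]) (by rw [smul_sub, h4, g4])
      (by rw [← sub_eq_zero.2 (show w1 + w2 + w3 + w4 = v1 + v2 + v3 + v4 from e)]; abel)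
    simp only [Prod.mk.injEq, Subtype.mk.injEq]
    exact ⟨⟨⟨sub_eq_zero.1 e1, sub_eq_zero.1 e2⟩, sub_eq_zero.1 e3⟩, sub_eq_zero.1 e4⟩
  · obtain ⟨w0, w1, w2, w3, w4, e, f1, f2, e1, e2, e3, e4⟩ := dec9 two ha hb hc w
    rw [h0 w0 f1 f2, zero_add] at e
    rw [mul_smul] at e1 e2
    rw [mul_smul _ (_ * _)] at e3 e4
    have o : (1 : Y) • w = w := one_smul _ _
    exact ⟨⟨⟨⟨⟨w1, e1 ▸ (Cube.nfix ha (Commute.one_left _) o).1⟩, ⟨w2, e2 ▸ (Cube.nfix hb (Commute.one_left _) o).1⟩⟩,
      ⟨w3, e3 ▸ (Cube.nfix ab (Commute.one_left _) o).1⟩⟩, ⟨w4, e4 ▸ (Cube.nfix ab' (Commute.one_left _) o).1⟩⟩, e.symm⟩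

theorem card_fix_conj {Y : Type*} [Group Y] [DistribMulAction Y W] (x g : Y) :
    Nat.card {w : W // (g * x * g⁻¹) • w = w} = Nat.card {w : W // x • w = w} :=
  Nat.card_congr ((MulAction.toPerm g⁻¹).subtypeEquiv fun w => by
    rw [mul_smul, mul_smul, smul_eq_iff_eq_inv_smul]; rfl)

open Equiv Equiv.Perm in
/-- The sign as a permutation of two points. -/
def Cube.sg : S5 →* Perm (Fin 2) where
  toFun σ := if sign σ = 1 then 1 else swap 0 1
  map_one' := by simp
  map_mul' σ τ := by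
    rw [map_mul]
    rcases Int.units_eq_one_or (sign σ) with h | h <;> rcases Int.units_eq_one_or (sign τ) with h' | h' <;>
      simp [h, h']

open Equiv Equiv.Perm in
/-- The embedding of `S5` in `A7`. -/
def Cube.em : S5 →* A7 :=
  ((finSumFinEquiv (m := 5) (n := 2)).permCongrHom.toMonoidHom.comp
    ((sumCongrHom _ _).comp ((MonoidHom.id _).prod Cube.sg))).codRestrict _ fun σ => by
      change sign ((finSumFinEquiv (m := 5) (n := 2)).permCongr (Perm.sumCongr σ (Cube.sg σ))) = 1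
      rw [sign_permCongr, sign_sumCongr]
      change _ * sign (if sign σ = 1 then (1 : Perm (Fin 2)) else swap 0 1) = 1
      rcases Int.units_eq_one_or (sign σ) with h | h <;> simp [h]

theorem Cube.em_inj : Function.Injective Cube.em := fun _ _ e =>
  congrArg Prod.fst (Equiv.Perm.sumCongrHom_injective
    ((finSumFinEquiv (m := 5) (n := 2)).permCongrHom.injective (congrArg Subtype.val e)))

theorem a7_triv [DistribMulAction A7 W] [Finite W] (md : Md A7 W) (w : W) : w = 0 := by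
  haveI := Fact.mk Nat.prime_three
  haveI := Fact.mk (show Nat.Prime 7 by norm_num)
  let a : A7 := ⟨c[0, 1, 2], Equiv.Perm.mem_alternatingGroup.2 (by decide +kernel)⟩
  let b : A7 := ⟨c[3, 4, 5], Equiv.Perm.mem_alternatingGroup.2 (by decide +kernel)⟩
  let x : A7 := ⟨c[1, 2, 4] * c[3, 6, 5], Equiv.Perm.mem_alternatingGroup.2 (by decide +kernel)⟩
  let f : A7 := ⟨c[0, 1, 2, 3, 4, 5, 6], Equiv.Perm.mem_alternatingGroup.2 (by decide +kernel)⟩
  let g0 : A7 := ⟨c[0, 3, 1, 4, 2, 5, 6], Equiv.Perm.mem_alternatingGroup.2 (by decide +kernel)⟩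
  let g1 : A7 := ⟨c[0, 6, 4], Equiv.Perm.mem_alternatingGroup.2 (by decide +kernel)⟩
  let g2 : A7 := ⟨c[0, 6, 1, 4, 5, 2, 3], Equiv.Perm.mem_alternatingGroup.2 (by decide +kernel)⟩
  have fa : ∀ v : W, a • v = v → v = 0 := fun v hv => by
    have e : Cube.em c[0, 1, 2] = a := by decide +kernel
    letI := DistribMulAction.compHom W Cube.em
    exact s5_fpf (md.comp Cube.em Cube.em_inj) (x := c[0, 1, 2])
      (orderOf_eq_prime (by decide +kernel) (by decide +kernel)) (show Cube.em _ • v = v by rwa [e])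
  have ca : Nat.card {v : W // a • v = v} = 1 :=
    Nat.card_eq_one_iff_exists.2 ⟨⟨0, smul_zero _⟩, fun v => Subtype.ext (fa _ v.2)⟩
  have h1 := four_le md.two (a := a) (b := b) (by decide +kernel) (by decide +kernel)
    (show a * b = b * a by decide +kernel) fun v hv _ => fa v hv
  have h2 := Cube.aux2 md (f := f) (x := x) (orderOf_eq_prime (by decide +kernel) (by decide +kernel))
    (by decide +kernel) (by decide +kernel)
  rw [show a * b = g1 * x * g1⁻¹ by decide +kernel, show a * b⁻¹ = g2 * x * g2⁻¹ by decide +kernel,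
    show b = g0 * a * g0⁻¹ by decide +kernel, card_fix_conj, card_fix_conj, card_fix_conj, ca, h2] at h1
  have : Nonempty {v : W // x • v = v} := ⟨⟨0, smul_zero _⟩⟩
  have h3 : 0 < Nat.card {v : W // x • v = v} := Nat.card_pos
  have h4 : Nat.card {v : W // x • v = v} = 1 := by
    rw [one_mul, one_mul, pow_three'] at h1
    exact Nat.eq_of_mul_eq_mul_left (Nat.mul_pos h3 h3) (h1.trans (mul_one _).symm)
  rw [h4, one_pow, Nat.card_eq_one_iff_unique] at h2
  exact h2.1.elim _ _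

end Cfsg.Agent.Or8
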