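import Mathlib
import Cfsg.Agent.Or8.Defs
import Cfsg.Agent.Or8.Bas
import Cfsg.Agent.Or8.Ct

/-! Modules for `SL(3, 2)`. -/

set_option autoImplicit false
set_option linter.unusedSectionVars false
open Cfsg Subgroup

namespace Cfsg.Agent.Or8

open Cfsg.Agent.K3P Cfsg.Agent.Loc.Mss
open scoped commutatorElement

universe u

variable {W : Type*} [AddCommGroup W]

namespace ML32

open Ct Matrix

/-- Three by three matrices over the field of two elements. -/
abbrev M3 : Type := Matrix (Fin 3) (Fin 3) (ZMod 2)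

/-- The determinant. -/
def dt (A : M3) : ZMod 2 := A 0 0 * A 1 1 * A 2 2 - A 0 0 * A 1 2 * A 2 1 - A 0 1 * A 1 0 * A 2 2 +
  A 0 1 * A 1 2 * A 2 0 + A 0 2 * A 1 0 * A 2 1 - A 0 2 * A 1 1 * A 2 0

theorem dt_one (g : L32) : dt g = 1 := (det_fin_three _).symm.trans g.2

/-- The vector with a given binary code. -/
def vv (n : ℕ) : V3 := fun i => ((n / 2 ^ (i : ℕ) % 2 : ℕ) : ZMod 2)

/-- The element of `L32` given by a matrix. -/
def mk (A : M3) : L32 := if h : dt A = 1 then ⟨A, (det_fin_three A).trans h⟩ else 1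

theorem coe_mk {A : M3} (h : dt A = 1) : (mk A).1 = A :=
  congrArg Subtype.val (show mk A = ⟨A, (det_fin_three A).trans h⟩ from dif_pos h)

/-- The element of `L32` with a given binary code. -/
def el (n : ℕ) : L32 := mk (of fun i j => vv (n / 8 ^ (j : ℕ) % 8) i)

/-- The unordered pair of vectors with given codes. -/
def pr (p : ℕ × ℕ) : Sym2 V3 := s(vv p.1, vv p.2)

theorem ac_mul (a b : L32) (c : V3) : ac (a * b) c = ac a (ac b c) :=
  (mulVec_mulVec _ _ _).symm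

theorem ac_one (c : V3) : ac 1 c = c := by simp [ac]

theorem ac_add (g : L32) (c d : V3) : ac g (c + d) = ac g c + ac g d := mulVec_add _ _ _

/-- The action on flags. -/
def af (g : L32) (t : Sym2 V3) : Sym2 V3 := t.map (ac g)

/-- The dual action. -/
def ad (g : L32) (c : V3) : V3 := c ᵥ* (g⁻¹ : L32).1

theorem af_mul (a b : L32) (t : Sym2 V3) : af (a * b) t = af a (af b t) := by
  rw [af, af, af, Sym2.map_map]
  exact congrArg (Sym2.map · t) (funext (ac_mul a b))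

theorem af_one (t : Sym2 V3) : af 1 t = t := by
  rw [af, show ac 1 = id from funext ac_one, Sym2.map_id, id]

theorem ad_mul (a b : L32) (c : V3) : ad (a * b) c = ad a (ad b c) := by
  rw [ad, ad, ad, _root_.mul_inv_rev, vecMul_vecMul]; rfl

theorem ad_one (c : V3) : ad 1 c = c := by simp [ad]

theorem ad_eq {g : L32} {c d : V3} : ad g c = d ↔ d ᵥ* g.1 = c := by
  have k : ∀ c, ad g⁻¹ c = c ᵥ* g.1 := fun c => by rw [ad, inv_inv]
  rw [← k]
  exact ⟨fun e => by rw [← e, ← ad_mul, inv_mul_cancel, ad_one],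
    fun e => by rw [← e, ← ad_mul, mul_inv_cancel, ad_one]⟩

set_option synthInstance.maxSize 1024 in
theorem tr_ac (c d : V3) (h1 : c ≠ 0) (h2 : d ≠ 0) (h3 : c ≠ d) :
    ∃ g : L32, ac g e0 = c ∧ ac g e1 = d := by
  have k : ∀ c d : V3, c ≠ 0 → d ≠ 0 → c ≠ d → ∃ e : V3, dt (of ![c, d, e])ᵀ = 1 ∧
      (of ![c, d, e])ᵀ *ᵥ e0 = c ∧ (of ![c, d, e])ᵀ *ᵥ e1 = d := by decide +kernel
  obtain ⟨e, k1, k2⟩ := k c d h1 h2 h3
  exact ⟨mk _, by rwa [ac, ac, coe_mk k1]⟩

set_option synthInstance.maxSize 1024 in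
theorem tr_ad (c d : V3) (h1 : c ≠ 0) (h2 : d ≠ 0) (h3 : c ≠ d) :
    ∃ g : L32, ad g e2 = c ∧ ad g e1 = d := by
  have k : ∀ c d : V3, c ≠ 0 → d ≠ 0 → c ≠ d → ∃ e : V3, dt (of ![e, d, c]) = 1 ∧
      e2 ᵥ* (of ![e, d, c]) = c ∧ e1 ᵥ* (of ![e, d, c]) = d := by decide +kernel
  obtain ⟨e, k1, k2⟩ := k c d h1 h2 h3
  exact ⟨(mk _)⁻¹, by rwa [ad, ad, inv_inv, coe_mk k1]⟩

/-- The base flag. -/
def b0 : Sym2 V3 := pr (2, 3)

theorem af_b0 (g : L32) : af g b0 = s(ac g e1, ac g e0 + ac g e1) := by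
  rw [← ac_add, show b0 = s(e1, e0 + e1) by decide +kernel]; rfl

theorem stab {g : L32} : af g b0 = b0 ↔ ac g e0 = e0 ∧ (ac g e1 = e1 ∨ ac g e1 = e0 + e1) := by
  have k : ∀ x y : V3, s(y, x + y) = b0 ↔ x = e0 ∧ (y = e1 ∨ y = e0 + e1) := by decide +kernel
  rw [af_b0, k]

theorem ok_af (t : Sym2 V3) (h : ¬ t.IsDiag ∧ (0 : V3) ∉ t) : ∃ g, af g b0 = t := by
  have k : ∀ c d : V3, ¬ s(c, d).IsDiag ∧ (0 : V3) ∉ s(c, d) →
      c + d ≠ 0 ∧ c ≠ 0 ∧ c + d ≠ c ∧ c + d + c = d := by decide +kernel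
  induction t using Sym2.ind with
  | h c d =>
  obtain ⟨k1, k2, k3, k4⟩ := k c d h
  obtain ⟨g, g1, g2⟩ := tr_ac _ _ k1 k2 k3
  exact ⟨g, by rw [af_b0, g1, g2, k4]⟩

section
variable {Y T : Type*} [Group Y] [DistribMulAction Y W] {act : Y → T → T} {p : T} {w : W} {f : T → W}

theorem sum_smul (h : Lab act p w f) (g : Y) {l : List T} (ok : ∀ t ∈ l, ∃ g, act g p = t) :
    ((l.map (act g)).map f).sum = g • (l.map f).sum := by
  rw [List.smul_sum, List.map_map, List.map_map]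
  exact congrArg _ (List.map_congr_left fun t ht => h.smul (ok t ht) g)

theorem sum_fix (h : Lab act p w f) {g : Y} {l : List T} (ok : ∀ t ∈ l, ∃ g, act g p = t)
    (hp : (l.map (act g)).Perm l) : g • (l.map f).sum = (l.map f).sum := by
  rw [← sum_smul h g ok, (hp.map f).sum_eq]

theorem cert2 [DecidableEq T] (h : Lab act p w f) (two : ∀ w : W, w + w = 0) {L : List T}
    {R : List (Y × List T)} (ok : ∀ r ∈ R, (∀ t ∈ r.2, ∃ g, act g p = t) ∧ (r.2.map f).sum = 0)
    (c : ∀ i ∈ L ++ R.flatMap fun r => r.2.map (act r.1),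
      (L ++ R.flatMap fun r => r.2.map (act r.1)).count i % 2 = 0) : (L.map f).sum = 0 := by
  have h1 := Or8.cert two f _ c
  have h2 : ((R.flatMap fun r => r.2.map (act r.1)).map f).sum = 0 := by
    clear c h1
    induction R with
    | nil => rfl
    | cons r R ih =>
      rw [List.flatMap_cons, List.map_append, List.sum_append,
        ih fun r' hr' => ok r' (List.mem_cons_of_mem _ hr'), sum_smul h _ (ok r List.mem_cons_self).1,
        (ok r List.mem_cons_self).2, smul_zero, add_zero]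
  rwa [List.map_append, List.sum_append, h2, add_zero] at h1

end

theorem span8 {Y : Type*} [Group Y] [DistribMulAction Y W] (two : ∀ w : W, w + w = 0)
    (irr : ∀ U : AddSubgroup W, (∀ y : Y, ∀ w ∈ U, y • w ∈ U) → U = ⊥ ∨ U = ⊤)
    {act : Y → V3 → V3} (add : ∀ g c d, act g (c + d) = act g c + act g d) (a1 : ∀ c, act 1 c = c)
    {c0 c1 : V3} (n1 : c1 ≠ 0) (n2 : c0 + c1 ≠ 0)
    (tr : ∀ c d, c ≠ 0 → d ≠ 0 → c ≠ d → ∃ g, act g c0 = c ∧ act g c1 = d) {p : W} (p0 : p ≠ 0)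
    {f : V3 → W} (hf : Lab act c0 p f) (rel : f c0 + f c1 + f (c0 + c1) = 0) : Nat.card W = 8 := by
  have ok : ∀ c, c ≠ 0 → ∃ g, act g c0 = c := fun c hc => by
    obtain ⟨d, h1, h2⟩ := (by decide +kernel : ∀ c : V3, ∃ d, d ≠ 0 ∧ c ≠ d) c
    exact (tr c d hc h1 h2).imp fun _ => And.left
  have a0 : ∀ g, act g 0 = 0 := fun g => by simpa using add g 0 0
  have an : ∀ g c, c ≠ 0 → act g c ≠ 0 := fun g c hc e => hc (by
    rw [← a1 c, ← inv_mul_cancel g, hf.mul, e, a0])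
  have cc : ∀ c : V3, c + c = 0 := by decide +kernel
  let F : V3 →+ W := AddMonoidHom.mk' (fun c => if c = 0 then 0 else f c) fun c d => by
    by_cases hc : c = 0
    · simp [hc]
    by_cases hd : d = 0
    · simp [hd]
    by_cases e : c = d
    · simp [e, cc, two]
    obtain ⟨g, rfl, rfl⟩ := tr c d hc hd e
    rw [← add, if_neg hc, if_neg hd, if_neg (an g _ n2), hf.smul (ok _ n2), hf.smul (ok _ n1),
      hf.smul ⟨1, a1 c0⟩, ← smul_add, ← add_zero (f c0 + f c1), ← two (f (c0 + c1)), ← add_assoc, rel,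
      zero_add]
  have Fe : ∀ g, F (act g c0) = g • p := fun g => by
    have : act g c0 ≠ 0 := fun e => by
      obtain ⟨k, hk⟩ := ok c1 n1
      exact n1 (by rw [← hk, ← inv_mul_cancel_right k g, hf.mul, e, a0])
    exact (if_neg this).trans (hf.ev g)
  have inj : Function.Injective F := (injective_iff_map_eq_zero F).2 fun c hc => by_contra fun c1 => by
    obtain ⟨g, rfl⟩ := ok c c1
    exact p0 ((smul_eq_zero_iff_eq g).1 (Fe g ▸ hc))
  have sur : F.range = ⊤ := (irr F.range fun y w ⟨c, hc⟩ => by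
    by_cases c1 : c = 0
    · rw [← hc, c1, map_zero, smul_zero]; exact zero_mem _
    obtain ⟨g, rfl⟩ := ok c c1
    exact ⟨act (y * g) c0, by rw [← hc, Fe, Fe, mul_smul]⟩).resolve_left fun e =>
      p0 (by have : F (act 1 c0) ∈ F.range := ⟨_, rfl⟩
             rwa [e, Fe, one_smul, AddSubgroup.mem_bot] at this)
  rw [← Nat.card_eq_of_bijective F ⟨inj, AddMonoidHom.range_eq_top.1 sur⟩]
  simp

variable [DistribMulAction L32 W]

/-- An element of order three fixing the base point. -/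
def a3 : L32 := el 417
/-- An element of order three fixing the base line. -/
def b3 : L32 := el 282

theorem dual8 (two : ∀ w : W, w + w = 0)
    (irr : ∀ U : AddSubgroup W, (∀ y : L32, ∀ w ∈ U, y • w ∈ U) → U = ⊥ ∨ U = ⊤) {l : W} (l0 : l ≠ 0)
    (fix : ∀ g : L32, e2 ᵥ* g.1 = e2 → g • l = l) (nx : l + a3 • l + (a3 * a3) • l = 0) :
    Nat.card W = 8 := by
  obtain ⟨f, hf⟩ := exists_lab ad_mul ad_one (p := e2) (w := l) fun g e => fix g (ad_eq.1 e)
  refine span8 two irr (fun g c d => add_vecMul _ _ _) ad_one (by decide) (by decide) tr_ad l0 hf ?_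
  have h0 := hf.ev 1
  have h1 := hf.ev a3
  have h2 := hf.ev (a3 * a3)
  rw [ad_one, one_smul] at h0
  rw [show ad a3 e2 = e1 from ad_eq.2 (by decide +kernel)] at h1
  rw [show ad (a3 * a3) e2 = e2 + e1 from ad_eq.2 (by decide +kernel)] at h2
  rw [h0, h1, h2, nx]

theorem pt8 (md : Md L32 W)
    (irr : ∀ U : AddSubgroup W, (∀ y : L32, ∀ w ∈ U, y • w ∈ U) → U = ⊥ ∨ U = ⊤) {p : W} (p0 : p ≠ 0)
    (fix : ∀ g : L32, ac g e0 = e0 → g • p = p) : Nat.card W = 8 := by
  obtain ⟨f, hf⟩ := exists_lab ac_mul ac_one fix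
  have ok : ∀ c : V3, c ≠ 0 → ∃ g, ac g e0 = c := fun c hc => by
    obtain ⟨d, h1, h2⟩ := (by decide +kernel : ∀ c : V3, ∃ d, d ≠ 0 ∧ c ≠ d) c
    exact (tr_ac c d hc h1 h2).imp fun _ => And.left
  have ok1 : ∀ t ∈ [e0, e1, e0 + e1], ∃ g, ac g e0 = t := fun t ht => ok t (by revert t; decide +kernel)
  by_cases h : ([e0, e1, e0 + e1].map f).sum = 0
  · refine span8 md.two irr ac_add ac_one (by decide) (by decide) tr_ac p0 hf ?_
    simpa [add_assoc] using h
  have k : ∀ A : M3, dt A = 1 → e2 ᵥ* A = e2 →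
      ([e0, e1, e0 + e1].map A.mulVec).Perm [e0, e1, e0 + e1] := by decide +kernel
  refine dual8 md.two irr h (fun g e => sum_fix hf ok1 (k g (dt_one g) e)) ?_
  rw [← sum_smul hf a3 ok1, ← sum_smul hf (a3 * a3) ok1, ← List.sum_append, ← List.sum_append,
    ← List.map_append, ← List.map_append]
  exact hf.cert md (el := el) (Or.inr rfl) ok (R := [(226, e0)]) (by decide +kernel)

theorem orb (md : Md L32 W) {v : W} {f : Sym2 V3 → W} (hf : Lab af b0 v f) {t : ℕ × ℕ}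
    {l : List (ℕ × ℕ)} (h : ol af (el 226) 7 (pr t) = l.map pr)
    (ok : ∀ r ∈ pr t :: l.map pr, ¬ r.IsDiag ∧ (0 : V3) ∉ r) :
    (∀ t ∈ l.map pr, ∃ g, af g b0 = t) ∧ ((l.map pr).map f).sum = 0 := by
  haveI := Fact.mk (show Nat.Prime 7 by norm_num)
  exact ⟨fun t ht => ok_af t (ok t (List.mem_cons_of_mem _ ht)), h ▸ hf.nrm md
    (orderOf_eq_prime (by decide +kernel) (by decide +kernel)) (by norm_num)
    (ok_af _ (ok _ List.mem_cons_self))⟩

theorem tri {v : W} {f : Sym2 V3 → W} (hf : Lab af b0 v f) (g h : L32) {l : List (ℕ × ℕ)}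
    (e : l.map pr = [b0, af g b0, af h b0]) :
    (∀ t ∈ l.map pr, ∃ g, af g b0 = t) ∧ ((l.map pr).map f).sum = v + g • v + h • v := by
  have h0 := hf.ev 1
  rw [af_one, one_smul] at h0
  rw [e]
  refine ⟨fun t ht => ?_, by simp [h0, hf.ev, add_assoc]⟩
  simp only [List.mem_cons, List.not_mem_nil, or_false] at ht
  rcases ht with rfl | rfl | rfl
  exacts [⟨1, af_one _⟩, ⟨g, rfl⟩, ⟨h, rfl⟩]

/-- An orbit of an element of order seven on the flags. -/
def o0 : List (ℕ × ℕ) := [(2, 3), (4, 6), (3, 7), (5, 6), (1, 7), (2, 5), (1, 4)]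
/-- An orbit of an element of order seven on the flags. -/
def o1 : List (ℕ × ℕ) := [(1, 2), (2, 4), (3, 4), (3, 6), (6, 7), (5, 7), (1, 5)]
/-- An orbit of an element of order seven on the flags. -/
def o2 : List (ℕ × ℕ) := [(1, 3), (2, 6), (4, 7), (3, 5), (1, 6), (2, 7), (4, 5)]
/-- The flags on the base point. -/
def oa : List (ℕ × ℕ) := [(2, 3), (4, 5), (6, 7)]
/-- The flags on the base line. -/
def ob : List (ℕ × ℕ) := [(2, 3), (1, 3), (1, 2)]

end ML32

open ML32 Ct Matrix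

variable [DistribMulAction L32 W]

theorem l32_tri (md : Md L32 W) {v : W}
    (fix : ∀ g : L32, ac g e0 = e0 → (ac g e1 = e1 ∨ ac g e1 = e0 + e1) → g • v = v)
    (nx : ∀ x : L32, orderOf x = 3 → ac x e0 = e0 → v + x • v + (x * x) • v = 0) :
    ∃ g₁ g₂ : L32, ac g₁ e0 = e2 ∧ ac g₂ e0 = e1 + e2 ∧ v + g₁ • v + g₂ • v = 0 := by
  haveI := Fact.mk Nat.prime_three
  obtain ⟨f, hf⟩ := exists_lab af_mul af_one (p := b0) (w := v) fun g e =>
    fix g (stab.1 e).1 (stab.1 e).2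
  have h0 := orb md hf (t := (2, 3)) (l := o0) (by decide +kernel) (by decide +kernel)
  have h1 := orb md hf (t := (1, 2)) (l := o1) (by decide +kernel) (by decide +kernel)
  have ha := tri hf a3 (a3 * a3) (l := oa) (by decide +kernel)
  rw [nx a3 (orderOf_eq_prime (by decide +kernel) (by decide +kernel)) (by decide +kernel)] at ha
  refine ⟨el 92, el 94, by decide +kernel, by decide +kernel, ?_⟩
  rw [← (tri hf (el 92) (el 94) (l := [(2, 3), (3, 7), (3, 5)]) (by decide +kernel)).2]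
  refine cert2 hf md.two (R := [(el 87, o0.map pr), (el 94, o1.map pr), (el 84, oa.map pr),
    (el 86, oa.map pr), (el 161, oa.map pr)]) ?_ (by decide +kernel)
  simp only [List.forall_mem_cons]
  exact ⟨h0, h1, ha, ha, ha, fun _ h => nomatch h⟩

/-- A nonzero vector of an invariant subgroup fixed by the stabiliser of the flag. -/
theorem l32_fix [Finite W] (two : ∀ w : W, w + w = 0) (U : AddSubgroup W) (h1 : U ≠ ⊥)
    (hU : ∀ g : L32, ac g e0 = e0 → ∀ w ∈ U, g • w ∈ U) :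
    ∃ v ∈ U, v ≠ 0 ∧
      ∀ g : L32, ac g e0 = e0 → (ac g e1 = e1 ∨ ac g e1 = e0 + e1) → g • v = v := by
  have k : ∀ A : M3, dt A = 1 → A *ᵥ e0 = e0 → (A *ᵥ e1 = e1 ∨ A *ᵥ e1 = e0 + e1) →
      A * A * (A * A) = 1 := by decide +kernel
  haveI := Fact.mk Nat.prime_two
  let T : Subgroup L32 :=
    { carrier := {g | af g b0 = b0}
      one_mem' := af_one b0
      mul_mem' := fun {a b} ha hb => by
        rw [Set.mem_setOf_eq] at ha hb ⊢
        rw [af_mul, hb, ha]
      inv_mem' := fun {a} ha => by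
        rw [Set.mem_setOf_eq] at ha ⊢
        conv_lhs => rw [← ha, ← af_mul, inv_mul_cancel, af_one] }
  have hT : IsPGroup 2 T := pg_iff.2 fun g hg => ⟨2, Subtype.ext (by
    rw [show 2 ^ 2 = 2 + 2 from rfl, pow_add, sq]
    exact k g (dt_one g) (stab.1 hg).1 (stab.1 hg).2)⟩
  let S : SubMulAction T W := ⟨U, fun g w hw => hU g (stab.1 g.2).1 w hw⟩
  obtain ⟨⟨w, hw⟩, w0⟩ := (AddSubgroup.ne_bot_iff_exists_ne_zero).1 h1
  have d : 2 ∣ Nat.card S := by
    have := addOrderOf_dvd_natCard (⟨w, hw⟩ : U)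
    rwa [addOrderOf_eq_prime (Subtype.ext ((two_nsmul w).trans (two w))) w0] at this
  obtain ⟨b, hb, b0'⟩ := hT.exists_fixed_point_of_prime_dvd_card_of_fixed_point S d
    (a := ⟨0, U.zero_mem⟩) fun g => Subtype.ext (smul_zero _)
  exact ⟨b, b.2, fun e => b0' (Subtype.ext e.symm), fun g g1 g2 =>
    congrArg Subtype.val (hb ⟨g, stab.2 ⟨g1, g2⟩⟩)⟩

theorem ML32.fix_a {v : W}
    (fix : ∀ g : L32, ac g e0 = e0 → (ac g e1 = e1 ∨ ac g e1 = e0 + e1) → g • v = v) (g : L32)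
    (e : ac g e0 = e0) : g • (v + a3 • v + (a3 * a3) • v) = v + a3 • v + (a3 * a3) • v := by
  obtain ⟨f, hf⟩ := exists_lab af_mul af_one (p := b0) (w := v) fun g e =>
    fix g (stab.1 e).1 (stab.1 e).2
  have ha := tri hf a3 (a3 * a3) (l := oa) (by decide +kernel)
  have k : ∀ A : M3, dt A = 1 → A *ᵥ e0 = e0 →
      ((oa.map pr).map (Sym2.map A.mulVec)).Perm (oa.map pr) := by decide +kernel
  exact ha.2 ▸ sum_fix hf ha.1 (k g (dt_one g) e)

theorem l32_min [Finite W] [Nontrivial W] (md : Md L32 W)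
    (irr : ∀ U : AddSubgroup W, (∀ y : L32, ∀ w ∈ U, y • w ∈ U) → U = ⊥ ∨ U = ⊤) :
    Nat.card W = 8 := by
  obtain ⟨v, -, v0, fix⟩ := l32_fix md.two ⊤ top_ne_bot fun _ _ _ _ => trivial
  by_cases pa : v + a3 • v + (a3 * a3) • v = 0
  swap
  · exact pt8 md irr pa (fix_a fix)
  obtain ⟨f, hf⟩ := exists_lab af_mul af_one (p := b0) (w := v) fun g e =>
    fix g (stab.1 e).1 (stab.1 e).2
  have ha := tri hf a3 (a3 * a3) (l := oa) (by decide +kernel)
  have hb := tri hf b3 (b3 * b3) (l := ob) (by decide +kernel)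
  rw [pa] at ha
  have l0 : ((ob.map pr).map f).sum ≠ 0 := fun e => by
    have h1 := orb md hf (t := (1, 2)) (l := o1) (by decide +kernel) (by decide +kernel)
    have h2 := orb md hf (t := (1, 3)) (l := o2) (by decide +kernel) (by decide +kernel)
    have hb' := And.intro hb.1 e
    have := cert2 hf md.two (L := [b0]) (R := [(el 95, o2.map pr), (el 140, ob.map pr),
      (el 86, o1.map pr), (el 92, o1.map pr), (el 142, ob.map pr), (el 98, oa.map pr),
      (el 99, oa.map pr)]) (by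
        simp only [List.forall_mem_cons]
        exact ⟨h2, hb', h1, h1, hb', ha, ha, fun _ h => nomatch h⟩) (by decide +kernel)
    have h0 := hf.ev 1
    rw [af_one, one_smul] at h0
    exact v0 (by simpa [h0] using this)
  have k : ∀ A : M3, dt A = 1 → e2 ᵥ* A = e2 →
      ((ob.map pr).map (Sym2.map A.mulVec)).Perm (ob.map pr) := by decide +kernel
  have k2 : ∀ A : M3, dt A = 1 → A *ᵥ e0 = e0 → (A *ᵥ e1 = e1 ∨ A *ᵥ e1 = e0 + e1) →
      e2 ᵥ* A = e2 := by decide +kernel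
  have fl : ∀ g : L32, e2 ᵥ* g.1 = e2 → g • ((ob.map pr).map f).sum = ((ob.map pr).map f).sum :=
    fun g e => sum_fix hf hb.1 (k g (dt_one g) e)
  generalize ((ob.map pr).map f).sum = l at l0 fl
  by_cases pl : l + a3 • l + (a3 * a3) • l = 0
  · exact dual8 md.two irr l0 fl pl
  · exact pt8 md irr pl (fix_a fun g g1 g2 => fl g (k2 g (dt_one g) g1 g2))

end Cfsg.Agent.Or8
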