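import Mathlib
import Cfsg.Agent.Or8.Defs
import Cfsg.Agent.Or8.Sc
import Cfsg.Agent.Or8.ML32
import Cfsg.Agent.Cl.LinearBasic

/-! Maximal 2-local subgroups of type `SL(3, 2)`: coordinates. -/

set_option autoImplicit false
set_option linter.unusedSectionVars false
open Cfsg Subgroup

namespace Cfsg.Agent.Or8

open Cfsg.Agent.K3P Cfsg.Agent.Loc.Mss
open scoped commutatorElement

universe u

variable {G : Type u} [Group G] [Finite G]

theorem l32_simple : IsSimpleGroup L32 :=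
  have := Cl.psl_fin_isSimpleGroup (F := ZMod 2) (n := 3) (by decide) (by decide)
  (Cl.pslEquivSL (ι := Fin 3) (F := ZMod 2) (by simp)).symm.isSimpleGroup

theorem l32_card : Nat.card L32 = 168 := by
  rw [Cl.card_sl_three]
  simp

theorem lb0_equiv {W : Type*} [AddCommGroup W] (two : ∀ w : W, w + w = 0) (h : Nat.card W = 8) :
    Nonempty (W ≃+ V3) := by
  have : Finite W := Nat.finite_of_card_ne_zero (by omega)
  let : Module (ZMod 2) W := AddCommGroup.zmodModule (n := 2) fun w => (two_nsmul w).trans (two w)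
  have h1 := Module.natCard_eq_pow_finrank (K := ZMod 2) (V := W)
  rw [h, Nat.card_zmod] at h1
  have h2 : Module.finrank (ZMod 2) W = 3 := Nat.pow_right_injective le_rfl h1.symm
  exact ⟨(LinearEquiv.ofFinrankEq (R := ZMod 2) W V3 (by simp [h2])).toAddEquiv⟩

theorem lb0_rep {Y W : Type*} [Group Y] [AddCommGroup W] [DistribMulAction Y W] (e : W ≃+ V3) :
    ∃ ρ : Y →* L32, ∀ y w, ac (ρ y) (e w) = e (y • w) := by
  have h1 : ∀ y : Y, ∃ A : Matrix (Fin 3) (Fin 3) (ZMod 2), ∀ w, A.mulVec (e w) = e (y • w) := fun y =>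
    ⟨LinearMap.toMatrix' (((e.toAddMonoidHom.comp (DistribSMul.toAddMonoidHom W y)).comp
      e.symm.toAddMonoidHom).toZModLinearMap 2), fun w => by simp [LinearMap.toMatrix'_mulVec]⟩
  choose A hA using h1
  have ext : ∀ {B C : Matrix (Fin 3) (Fin 3) (ZMod 2)}, (∀ w, B.mulVec (e w) = C.mulVec (e w)) → B = C :=
    fun h => Matrix.mulVec_injective (funext fun c => by simpa using h (e.symm c))
  have hm : ∀ y y', A (y * y') = A y * A y' := fun y y' => ext fun w => by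
    rw [← Matrix.mulVec_mulVec, hA, hA, hA, mul_smul]
  have h1 : A 1 = 1 := ext fun w => by rw [hA, one_smul, Matrix.one_mulVec]
  have hd : ∀ y, (A y).det = 1 := fun y => (show ∀ a b : ZMod 2, a * b = 1 → a = 1 by decide) _ (A y⁻¹).det (by
    rw [← Matrix.det_mul, ← hm, mul_inv_cancel, h1, Matrix.det_one])
  exact ⟨MonoidHom.mk' (fun y => ⟨A y, hd y⟩) fun y y' => Subtype.ext (hm y y'), hA⟩

theorem exists_lc (h : St G) {M : Subgroup G} (m : Mx M) (ch : ChP 2 M) (t : Ty M L32) :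
    ∃ V : Subgroup G, LC M (O2 M) V := by
  obtain ⟨π, p⟩ := t
  obtain ⟨A, s, A1, min⟩ := exists_min p m.ne
  obtain ⟨W, _, _, _, ψ, c, md⟩ := exists_sc h p s
  have inj : ∀ a ∈ A, ∀ b ∈ A, ψ a = ψ b → a = b := fun a ha b hb e =>
    inv_mul_eq_one.1 (mem_bot.1 ((c.eq_iff s ha hb).1 e))
  obtain ⟨⟨a, ha⟩, a1⟩ := (ne_bot_iff_exists_ne_one.1 A1)
  have a0 : ψ a ≠ 0 := fun e => a1 (Subtype.ext (mem_bot.1 ((c.zero a ha).1 e)))
  have : Nontrivial W := ⟨⟨_, _, a0⟩⟩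
  obtain ⟨e⟩ := lb0_equiv md.two (l32_min md (c.irr p s fun U _ => min U))
  obtain ⟨ρ, hρ⟩ := lb0_rep (Y := L32) e
  have := l32_simple
  have ρi : Function.Injective ρ := (MonoidHom.ker_eq_bot_iff ρ).1
    ((MonoidHom.normal_ker ρ).eq_bot_or_eq_top.resolve_right fun e1 => by
      have : Fact (Nat.Prime 7) := ⟨by norm_num⟩
      obtain ⟨y, hy⟩ := exists_prime_orderOf_dvd_card' (G := L32) 7 (by rw [l32_card]; norm_num)
      refine a0 (md.fpf (Or.inr hy) (e.injective ?_))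
      rw [← hρ, MonoidHom.mem_ker.1 (e1.ge (mem_top y))]
      exact Matrix.one_mulVec _)
  choose σ σA hσ using c.surj
  refine ⟨A, _, fun v => σ (e.symm v), m, ch, rfl,
    p.congr (MulEquiv.ofBijective ρ (Finite.injective_iff_bijective.1 ρi)), s.AQ, fun g => ⟨fun hg => ?_, ?_⟩,
    fun v v' e1 => ?_, fun v v' => ?_, fun g v => ?_⟩
  · exact ⟨e (ψ g), inj _ (σA _) _ hg (by rw [hσ, e.symm_apply_apply])⟩
  · rintro ⟨v, rfl⟩
    exact σA _
  · exact e.symm.injective (by rw [← hσ (e.symm v), ← hσ (e.symm v')]; exact congrArg ψ e1)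
  · exact inj _ (σA _) _ (mul_mem (σA _) (σA _)) (by rw [c.add _ (σA _) _ (σA _), hσ, hσ, hσ, map_add])
  · refine inj _ (conj_mem_of_norm (s.nA g.2) (σA _)) _ (σA _) ?_
    rw [c.act g _ (σA _), hσ, hσ, eq_comm, e.symm_apply_eq, ← hρ, e.apply_symm_apply]
    rfl

theorem lb0_trans : ∀ c : V3, c ≠ 0 → ∃ g : L32, ac g e0 = c := by
  have : ∀ c : V3, c ≠ 0 → ∃ d d' : V3,
      Matrix.det !![c 0, d 0, d' 0; c 1, d 1, d' 1; c 2, d 2, d' 2] = 1 := by
    simp only [Matrix.det_fin_three]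
    decide
  intro c hc
  obtain ⟨d, d', h⟩ := this c hc
  refine ⟨⟨_, h⟩, funext fun i => ?_⟩
  fin_cases i <;> simp [Matrix.mulVec, dotProduct, Fin.sum_univ_three]

theorem LC.coord {M Q V : Subgroup G} (c : LC M Q V) {z : G} (zV : z ∈ V) (z1 : z ≠ 1) :
    ∃ (π : M →* L32) (ψ : V3 → G), LB M Q V π ψ ∧ ψ e0 = z := by
  obtain ⟨π, ψ, b⟩ := c
  obtain ⟨v, rfl⟩ := (b.mem z).1 zV
  obtain ⟨g, rfl⟩ := lb0_trans v fun e => z1 (by
    rw [e]
    exact mul_left_cancel (a := ψ 0) (by rw [← b.add, add_zero, mul_one]))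
  have am : ∀ (g g' : L32) (c : V3), ac g (ac g' c) = ac (g * g') c := fun g g' c =>
    Matrix.mulVec_mulVec ..
  have a1 : ∀ c : V3, ac 1 c = c := fun c => Matrix.one_mulVec c
  refine ⟨_, fun c => ψ (ac g c), ⟨b.mx, b.ch, b.core, b.pj.congr (MulAut.conj g⁻¹), b.VQ, fun x => ?_,
    fun c d e => ?_, fun c d => ?_, fun x c => ?_⟩, rfl⟩
  · rw [b.mem]
    exact ⟨fun ⟨c, e⟩ => ⟨ac g⁻¹ c, by rw [am, mul_inv_cancel, a1, e]⟩, fun ⟨c, e⟩ => ⟨_, e⟩⟩
  · have := congrArg (ac g⁻¹) (b.inj e)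
    rwa [am, am, inv_mul_cancel, a1, a1] at this
  · rw [← b.add, ac, Matrix.mulVec_add]
  · rw [b.act, am, am]
    simp [mul_assoc]

end Cfsg.Agent.Or8
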