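import Mathlib
import Cfsg.Agent.Or8.Defs
import Cfsg.Agent.Or8.Bas
import Cfsg.Agent.O3.SC

/-! The two elementary abelian subgroups of order sixteen. -/

set_option autoImplicit false
set_option linter.unusedSectionVars false
open Cfsg Subgroup

namespace Cfsg.Agent.Or8

open Cfsg.Agent.K3P Cfsg.Agent.Loc.Mss
open scoped commutatorElement

universe u

variable {G : Type u} [Group G] [Finite G]

namespace N1

/-- A freely acting coset contains an involution. -/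
theorem exists_invol {V : Subgroup G} (hV : IsElementaryAbelian 2 V) (cV : Nat.card V = 16) {a : G} (ha : a ∈ 𝐍[V])
    (h2 : a * a ∈ V) (fr : Nat.card (V ⊓ Cn a : Subgroup G) ≤ 4) : ∃ v ∈ V, v * a * (v * a) = 1 := by
  have cm : ∀ v ∈ V, a * v * a⁻¹ ∈ V := fun v hv => conj_mem_of_norm ha hv
  have mm : ∀ v ∈ V, v * (a * v * a⁻¹) ∈ V ⊓ Cn a := fun v hv => ⟨mul_mem hv (cm v hv), by
    have e : a * (a * v * a⁻¹) * a⁻¹ = v := by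
      rw [show a * (a * v * a⁻¹) * a⁻¹ = (a * a) * v * (a * a)⁻¹ by group, (el_comm hV h2 hv).eq]; group
    refine mem_Cn.2 ?_
    change a * (v * (a * v * a⁻¹)) = v * (a * v * a⁻¹) * a
    rw [(el_comm hV hv (cm v hv)).eq]
    calc a * (a * v * a⁻¹ * v) = a * (a * v * a⁻¹) * a⁻¹ * (a * v * a⁻¹) * a := by group
      _ = v * (a * v * a⁻¹) * a := by rw [e]
      _ = _ := by rw [(el_comm hV hv (cm v hv)).eq]⟩
  let φ : V →* (V ⊓ Cn a : Subgroup G) := MonoidHom.mk' (fun v => ⟨_, mm v v.2⟩) fun s t => by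
    refine Subtype.ext ?_
    change (s : G) * t * (a * (s * t) * a⁻¹) = s * (a * s * a⁻¹) * (t * (a * t * a⁻¹))
    rw [mul_assoc (s : G) (a * s * a⁻¹), ← mul_assoc (a * s * a⁻¹), (el_comm hV (cm s s.2) t.2).eq]
    group
  have h1 : Nat.card φ.ker ≤ Nat.card (V ⊓ Cn a : Subgroup G) := by
    refine Nat.card_le_card_of_injective (fun v => ⟨((v : V) : G), v.1.2, ?_⟩) fun s t e =>
      Subtype.ext (Subtype.ext (Subtype.mk.inj e))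
    have e : ((v : V) : G) * (a * (v : V) * a⁻¹) = 1 := congrArg Subtype.val (MonoidHom.mem_ker.1 v.2)
    have e2 := mul_left_cancel (e.trans (el_sq hV v.1.2).symm)
    exact mem_Cn.2 (mul_inv_eq_iff_eq_mul.1 e2)
  have h3 := φ.ker.card_mul_index
  rw [index_ker, cV] at h3
  have h4 : φ.range = ⊤ := eq_top_of_le_card _ (by nlinarith)
  obtain ⟨v, hv⟩ := h4.ge (mem_top (⟨a * a, h2, mem_Cn.2 (mul_assoc ..).symm⟩ : (V ⊓ Cn a : Subgroup G)))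
  have e : (v : G) * (a * v * a⁻¹) = a * a := congrArg Subtype.val hv
  refine ⟨v, v.2, ?_⟩
  calc _ = v * (a * v * a⁻¹) * (a * a) := by group
    _ = 1 := by rw [e, el_sq hV h2]

/-- Adjoining a commuting involution to an elementary abelian group. -/
theorem ext2 {A : Subgroup G} (hA : ∀ a ∈ A, a * a = 1) {r : G} (r2 : r * r = 1) (hc : r ∈ 𝐂[A]) (n : r ∉ A) :
    (∀ e, e ∈ A ⊔ zpowers r ↔ e ∈ A ∨ e * r ∈ A) ∧ (∀ a ∈ A ⊔ zpowers r, a * a = 1) ∧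
      Nat.card (A ⊔ zpowers r : Subgroup G) = 2 * Nat.card A := by
  have mem := fun e => O3.mem_sup_inv (e := e) r2 (cent_le_norm _ hc)
  have el : ∀ a ∈ A ⊔ zpowers r, a * a = 1 := fun a ha => ((mem a).1 ha).elim (hA a) fun k => by
    have k1 := hA _ k
    have k2 := mem_cent.1 hc _ k
    calc a * a = a * r * (r * (a * r)) * r := by simp only [mul_assoc, ← mul_assoc r r, r2, one_mul, mul_one]
      _ = 1 := by rw [← k2, ← mul_assoc, k1, one_mul, r2]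
  have rA : r ∈ A ⊔ zpowers r := mem_sup_right (mem_zpowers r)
  refine ⟨mem, el, ?_⟩
  have k1 := O3.two_le le_sup_left rA n
  have k2 : Nat.card (A ⊔ zpowers r : Subgroup G) ≤ 2 * Nat.card ((A ⊔ zpowers r) ⊓ A : Subgroup G) :=
    O3.le_two fun a ha b hb na nb => by
      have k := mul_mem (((mem b).1 hb).resolve_left nb) (((mem a).1 ha).resolve_left na)
      rwa [← (el_comm (el_of_sq el) rA ha).eq, mul_assoc, ← mul_assoc r r, r2, one_mul] at k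
  rw [inf_eq_right.2 le_sup_left] at k2
  omega

variable {V T0 S : Subgroup G} {x : G} (c : CN V T0 S x)
include c

theorem TN : T0 ≤ 𝐍[V] := c.TS.trans c.syl.le

theorem xZ : x ∈ 𝐍[V ⊓ 𝐂[T0]] :=
  norm_inf (X := zpowers x) (zpowers_le.2 c.xV) (norm_cent (zpowers_le.2 c.xT)) (mem_zpowers x)

theorem four_le : 4 ≤ Nat.card (V ⊓ 𝐂[T0] : Subgroup G) := by
  have h1 := card_mod_cn Nat.prime_three c.xo (xZ c)
  rw [show V ⊓ 𝐂[T0] ⊓ Cn x = ⊥ from le_bot_iff.1 (c.fpf ▸ inf_le_inf_right _ (inf_le_left.trans c.VT)), card_bot] at h1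
  obtain ⟨w, hw, w1, h2⟩ := exists_fix (Z := ⊥) (c.syl.pg.to_le c.TS) (two_of_el c.el)
    (bot_lt_iff_ne_bot.2 fun e => by simpa [e] using c.card) (TN c) (norm_normal _ _) (norm_normal _ _)
  have h3 : Nat.card (V ⊓ 𝐂[T0] : Subgroup G) ≠ 1 := fun e => w1 (card_eq_one.1 e ▸ (⟨hw, mem_cent.2 fun d hd =>
    mul_inv_eq_iff_eq_mul.1 (mul_inv_eq_one.1 (h2 d hd))⟩ : w ∈ V ⊓ 𝐂[T0]))
  omega

theorem cn_eq {t : G} (ht : t ∈ T0) (n : t ∉ V) :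
    V ⊓ 𝐂[T0] = V ⊓ Cn t ∧ Nat.card (V ⊓ 𝐂[T0] : Subgroup G) = 4 := by
  have h1 := c.free t (TN c ht) n (c.sq t ht)
  have h2 := four_le c
  have le : V ⊓ 𝐂[T0] ≤ V ⊓ Cn t := fun a ha => ⟨ha.1, mem_Cn.2 (mem_cent.1 ha.2 t ht)⟩
  have h3 := card_le_of_le le
  exact ⟨O3.eq_of_card le (by omega), by omega⟩

theorem sqZ {t : G} (ht : t ∈ T0) : t * t ∈ V ⊓ 𝐂[T0] := by
  by_cases n : t ∈ V
  · rw [el_sq c.el n]; exact one_mem _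
  · exact (cn_eq c ht n).1.ge ⟨c.sq t ht, mem_Cn.2 (mul_assoc ..).symm⟩

theorem cmZ {a b : G} (ha : a ∈ T0) (hb : b ∈ T0) : a * b * a⁻¹ * b⁻¹ ∈ V ⊓ 𝐂[T0] := by
  have := mul_mem (mul_mem (sqZ c ha) (sqZ c (mul_mem (inv_mem ha) hb))) (sqZ c (inv_mem hb))
  simpa [mul_assoc] using this

theorem fix {Q : Subgroup G} (hQ : Q ≤ V) (xQ : x ∈ 𝐍[Q]) {u : G} (hu : u ∈ T0) (uQ : u ∈ 𝐍[Q])
    (h : u⁻¹ * (x * u * x⁻¹) ∈ Q) : u ∈ Q := by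
  obtain ⟨q, hq, e⟩ := exists_cn ((two_of_el c.el).to_le hQ) c.xo xQ uQ h
  have h2 : u * q = 1 := c.fpf.le ⟨mul_mem hu (c.VT (hQ hq)), mem_Cn.2 e⟩
  exact eq_inv_of_mul_eq_one_left h2 ▸ inv_mem hq

end N1

open N1 in
theorem CN.p4 {V T0 S : Subgroup G} {x : G} (c : CN V T0 S x) :
    ∃ V' : Subgroup G, P4 V V' T0 ∧ x ∈ 𝐍[V'] := by
  obtain ⟨t, ht, nt⟩ := SetLike.not_le_iff_exists.1 (show ¬ T0 ≤ V from fun k => by
    have := card_le_of_le k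
    rw [c.cardT, c.card] at this
    omega)
  have cZ := (cn_eq c ht nt).2
  obtain ⟨v, hv, s1⟩ := exists_invol c.el c.card (TN c ht) (c.sq t ht) (c.free t (TN c ht) nt (c.sq t ht))
  have m1 : v * t ∈ T0 := mul_mem (c.VT hv) ht
  have n1 : v * t ∉ V := fun k => nt ((mul_mem_cancel_left hv).1 k)
  generalize v * t = t1 at s1 m1 n1
  have i1 := O3.inv_of_sq s1
  have sq : ∀ {a : G}, a * a = 1 → x * a * x⁻¹ * (x * a * x⁻¹) = 1 := fun {a} e => by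
    calc _ = x * (a * a) * x⁻¹ := by group
      _ = 1 := by rw [e]; group
  have x3 : x ^ 3 = 1 := c.xo ▸ pow_orderOf_eq_one x
  obtain ⟨t2, e2⟩ : ∃ t2, x * t1 * x⁻¹ = t2 := ⟨_, rfl⟩
  obtain ⟨t3, e3⟩ : ∃ t3, x * t2 * x⁻¹ = t3 := ⟨_, rfl⟩
  have e1 : x * t3 * x⁻¹ = t1 := by
    calc _ = x ^ 3 * t1 * (x ^ 3)⁻¹ := by rw [← e3, ← e2]; simp [pow_succ, mul_assoc]
      _ = t1 := by rw [x3]; group
  have m2 : t2 ∈ T0 := e2 ▸ conj_mem_of_norm c.xT m1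
  have m3 : t3 ∈ T0 := e3 ▸ conj_mem_of_norm c.xT m2
  have s2 : t2 * t2 = 1 := e2 ▸ sq s1
  have n2 : t2 ∉ V := fun k => n1 (by simpa [← e2, mul_assoc] using conj_mem_of_norm' c.xV k)
  have n12 : t1 * t2 ∉ V := fun k => n1 (fix c le_rfl c.xV m1 (TN c m1) (by rwa [e2, i1]))
  have TZ : T0 ≤ 𝐂[V ⊓ 𝐂[T0]] := cent_comm inf_le_right
  have hn : t1 * t2 * t3 ∈ V ⊓ 𝐂[T0] := by
    have m := mul_mem (mul_mem m1 m2) m3
    refine fix c inf_le_left (xZ c) m (cent_le_norm _ (TZ m)) ?_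
    have := cmZ c (inv_mem (mul_mem m2 m3)) (inv_mem m1)
    rwa [show (t1 * t2 * t3)⁻¹ * (x * (t1 * t2 * t3) * x⁻¹) = (t2 * t3)⁻¹ * t1⁻¹ * (t2 * t3)⁻¹⁻¹ * t1⁻¹⁻¹ by
      rw [show x * (t1 * t2 * t3) * x⁻¹ = x * t1 * x⁻¹ * (x * t2 * x⁻¹) * (x * t3 * x⁻¹) by group, e1, e2, e3]; group]
  have cm : t1 * t2 = t2 * t1 := by
    have k1 : t2 * t3 * (t2 * t3) = 1 := by
      have k : t2 * t3 = t1 * (t1 * t2 * t3) := by rw [← mul_assoc, ← mul_assoc, s1, one_mul]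
      have k2 := mem_cent.1 hn.2 t1 m1
      have k3 := el_sq c.el hn.1
      rw [k]
      generalize t1 * t2 * t3 = n at k2 k3
      rw [mul_assoc, ← mul_assoc n, ← k2, mul_assoc t1 n n, k3, mul_one, s1]
    have k2 : x * (t1 * t2 * (t1 * t2)) * x⁻¹ = 1 := by rw [← k1, ← e3, ← e2]; group
    rw [← O3.inv_of_sq (conj_eq_one_iff.1 k2), mul_inv_rev, i1, O3.inv_of_sq s2]
  obtain ⟨a1, a2, a3⟩ := ext2 (A := V ⊓ 𝐂[T0]) (fun a ha => el_sq c.el ha.1) s1 (TZ m1) fun k => n1 k.1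
  have l1 : V ⊓ 𝐂[T0] ⊔ zpowers t1 ≤ T0 := sup_le (inf_le_left.trans c.VT) (zpowers_le.2 m1)
  obtain ⟨b1, b2, b3⟩ := ext2 a2 s2 (cent_comm (B := zpowers t2) (sup_le (cent_comm (zpowers_le.2 (TZ m2)))
    (zpowers_le.2 (O3.mem_cz.2 cm.symm))) (mem_zpowers t2)) fun k => ((a1 _).1 k).elim (fun k => n2 k.1) fun k => n12 (cm ▸ k.1)
  have l2 : V ⊓ 𝐂[T0] ⊔ zpowers t1 ⊔ zpowers t2 ≤ T0 := sup_le l1 (zpowers_le.2 m2)
  have z1 : V ⊓ 𝐂[T0] ≤ V ⊓ 𝐂[T0] ⊔ zpowers t1 ⊔ zpowers t2 := le_sup_left.trans le_sup_left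
  have u1 : t1 ∈ V ⊓ 𝐂[T0] ⊔ zpowers t1 ⊔ zpowers t2 := mem_sup_left (mem_sup_right (mem_zpowers _))
  have u2 : t2 ∈ V ⊓ 𝐂[T0] ⊔ zpowers t1 ⊔ zpowers t2 := mem_sup_right (mem_zpowers _)
  have eZ : V ⊓ (V ⊓ 𝐂[T0] ⊔ zpowers t1 ⊔ zpowers t2) = V ⊓ 𝐂[T0] := le_antisymm (fun g hg => by
    have gV : g ∈ V := hg.1
    rcases (b1 g).1 hg.2 with k | k <;> rcases (a1 _).1 k with k | k
    · exact k
    · exact absurd ((mul_mem_cancel_left gV).1 k.1) n1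
    · exact absurd ((mul_mem_cancel_left gV).1 k.1) n2
    · exact absurd ((mul_mem_cancel_left gV).1 (mul_assoc g _ _ ▸ k.1)) (cm ▸ n12)) (le_inf inf_le_left z1)
  have c16 : Nat.card (V ⊓ 𝐂[T0] ⊔ zpowers t1 ⊔ zpowers t2 : Subgroup G) = 16 := by rw [b3, a3, cZ]
  refine ⟨_, ⟨c.el, el_of_sq b2, c.card, c16, by rw [eZ, cZ], O3.eq_of_card (sup_le c.VT l2) ?_, c.cardT, l2.trans (TN c),
    fun g hg => mem_norm_of_cj_le (cj_le_iff.2 fun a ha => ?_), fun a ha b hb e => ?_⟩, mem_norm_of_cj_le ?_⟩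
  · have := card_mul_le (Q := V ⊔ (V ⊓ 𝐂[T0] ⊔ zpowers t1 ⊔ zpowers t2)) le_sup_left le_sup_right
    rw [eZ, cZ, c16, c.card] at this
    rw [c.cardT]
    omega
  · simpa using mul_mem (z1 (cmZ c (c.VT hg) (l2 ha))) ha
  · by_cases k : b ∈ V
    exacts [.inr k, .inl (z1 ((cn_eq c (l2 hb) k).1.ge ⟨ha, mem_Cn.2 e.symm⟩))]
  · rw [cj_sup, cj_sup, cj_of_norm (xZ c), MonoidHom.map_zpowers, MonoidHom.map_zpowers]
    refine sup_le (sup_le z1 (zpowers_le.2 (show x * t1 * x⁻¹ ∈ _ by rwa [e2]))) (zpowers_le.2 ?_)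
    show x * t2 * x⁻¹ ∈ _
    rw [e3]
    exact (mul_mem_cancel_left (mul_mem u1 u2)).1 (z1 hn)

theorem mkCN {Y : Type*} [Group Y] [Finite Y] {M V : Subgroup G} {π : M →* Y} (p : Pj M V π)
    (nV : 𝐍[V] = M) (cen : 𝐂[V] ≤ V) (el : IsElementaryAbelian 2 V) (h16 : Nat.card V = 16)
    {T0 S : Subgroup Y} (TS : T0 ≤ S) (syl : Syl 2 S ⊤) (cT : Nat.card T0 = 4)
    (sq : ∀ t ∈ T0, t * t = 1) {x : M} (xo : orderOf (x : G) = 3) (xT : π x ∈ 𝐍[T0])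
    (f1 : V ⊓ Cn (x : G) = ⊥) (f2 : T0 ⊓ Cn (π x) = ⊥)
    (gl : ∀ q ∈ M, q ∉ V → q * q ∈ V → Nat.card (V ⊓ Cn q : Subgroup G) ^ 2 ≤ Nat.card V)
    (top : S = T0 ∨ (Nat.card S = 8 ∧ (∀ q ∈ S, q ∉ T0 → q * π x * q⁻¹ * π x ∈ T0) ∧
      ∃ q ∈ S, q ∉ T0 ∧ q * q = 1)) :
    CN V (pre π T0) (pre π S) (x : G) := by
  have mp : ∀ {K : Subgroup Y} (m : M), (m : G) ∈ pre π K ↔ π m ∈ K := fun m =>
    mem_pre.trans ⟨fun ⟨_, k⟩ => k, fun k => ⟨m.2, k⟩⟩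
  refine ⟨el, h16, cen, p.le_pre _, fun g hg => ?_, nV ▸ p.syl_pre syl, by rw [p.card_pre, h16, cT], fun t ht => ?_, xo,
    nV.ge x.2, mem_norm_of_cj_le (cj_le_iff.2 fun a ha => ?_), le_bot_iff.1 fun g hg => ?_, fun q h1 h2 h3 => ?_,
    top.imp (fun e => by rw [e]) fun ⟨h1, h2, q, h3, h4, h5⟩ => ⟨by rw [p.card_pre, h16, h1], fun q k1 k2 => ?_, ?_⟩⟩
  · obtain ⟨h, k⟩ := mem_pre.1 hg
    exact mem_pre.2 ⟨h, TS k⟩
  · obtain ⟨h, k⟩ := mem_pre.1 ht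
    exact (p.ker (⟨t, h⟩ * ⟨t, h⟩)).1 (by rw [map_mul, sq _ k])
  · obtain ⟨h, k⟩ := mem_pre.1 ha
    exact (mp (x * ⟨a, h⟩ * x⁻¹)).2 (by rw [map_mul, map_mul, map_inv]; exact conj_mem_of_norm xT k)
  · obtain ⟨h, k⟩ := mem_pre.1 hg.1
    have e : x * ⟨g, h⟩ = ⟨g, h⟩ * x := Subtype.ext (mem_Cn.1 hg.2).eq
    have k1 : π ⟨g, h⟩ = 1 := f2.le ⟨k, mem_Cn.2 (show _ * _ = _ * _ by rw [← map_mul, e, map_mul])⟩
    exact f1.le ⟨(p.ker _).1 k1, hg.2⟩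
  · have := gl q (nV.le h1) h2 h3
    rw [h16] at this
    nlinarith
  · obtain ⟨h, k⟩ := mem_pre.1 k1
    exact (mp (⟨q, h⟩ * x * ⟨q, h⟩⁻¹ * x)).2 (by
      simp only [map_mul, map_inv]
      exact h2 _ k fun e => k2 ((mp ⟨q, h⟩).2 e))
  · obtain ⟨m, rfl⟩ := p.surj q
    exact ⟨m, (mp m).2 h3, fun e => h4 ((mp m).1 e), (p.ker (m * m)).1 (by rw [map_mul, h5])⟩

end Cfsg.Agent.Or8
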