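import Mathlib
import Cfsg.Agent.Or8.Defs
import Cfsg.Agent.Or8.Bas
import Cfsg.Agent.K3P.A7

/-! Two 2-groups of sectional rank four. -/

set_option autoImplicit false
set_option linter.unusedSectionVars false
open Cfsg Subgroup

namespace Cfsg.Agent.Or8

open Cfsg.Agent.K3P Cfsg.Agent.Loc.Mss
open scoped commutatorElement

universe u

variable {G : Type u} [Group G] [Finite G]

theorem sr_inj {A N B C : Subgroup G} (f : G → G) (hf : ∀ a ∈ A, f a ∈ N)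
    (h : ∀ a ∈ A, ∀ b ∈ A, (f a)⁻¹ * f b ∈ C → a⁻¹ * b ∈ B) : B.relIndex A ≤ C.relIndex N :=
  Nat.card_le_card_of_injective (fun q : A ⧸ B.subgroupOf A =>
    (QuotientGroup.mk (⟨f q.out, hf _ q.out.2⟩ : N) : N ⧸ C.subgroupOf N)) fun q q' e => by
      rw [← q.out_eq', ← q'.out_eq']
      have e' := QuotientGroup.eq.1 e
      exact QuotientGroup.eq.2 (h _ q.out.2 _ q'.out.2 e')

theorem sr_card (A B : Subgroup G) : Nat.card (A ⊓ B : Subgroup G) * B.relIndex A = Nat.card A := by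
  rw [← relIndex_bot_left, ← relIndex_bot_left, ← inf_relIndex_left A B]
  exact relIndex_mul_relIndex _ _ _ bot_le inf_le_left

theorem sr_cm {H N : Subgroup G} (sq : ∀ a ∈ H, a * a ∈ N) {a b : G} (ha : a ∈ H) (hb : b ∈ H) :
    a * b * a⁻¹ * b⁻¹ ∈ N := by
  have h : a * b * a⁻¹ * b⁻¹ = a * a * (a⁻¹ * b * (a⁻¹ * b)) * (b * b)⁻¹ := by group
  exact h ▸ mul_mem (mul_mem (sq a ha) (sq _ (mul_mem (inv_mem ha) hb))) (inv_mem (sq b hb))

theorem sr_core {T V : Subgroup G} (hT : Nat.card T = 64) (cV : Nat.card V = 16) (VT : V ≤ T)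
    (fr : ∀ t ∈ T, t ∉ V → Nat.card (V ⊓ Cn t : Subgroup G) ≤ 4) {H N : Subgroup G} (hH : H ≤ T)
    (sq : ∀ a ∈ H, a * a ∈ N) : Nat.card H ≤ 16 * Nat.card N := by
  have p : 0 < Nat.card N := Nat.card_pos
  by_cases h : H ≤ V
  · have := card_le_of_le h
    omega
  obtain ⟨t, ht, tV⟩ := SetLike.not_le_iff_exists.1 h
  have h1 := card_mul_le hH VT
  have h2 := sr_card (H ⊓ V) (Cn t)
  have h3 := (card_le_of_le (inf_le_inf_right (Cn t) (inf_le_right (a := H)))).trans (fr t (hH ht) tV)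
  have h4 := sr_inj (A := H ⊓ V) (N := N) (B := Cn t) (C := ⊥) (fun a => a * t * a⁻¹ * t⁻¹)
    (fun a ha => sr_cm sq ha.1 ht) fun a _ b _ e => mem_Cn.2 (by
      have e' := mul_right_cancel (inv_mul_eq_one.1 (mem_bot.1 e))
      calc t * (a⁻¹ * b) = a⁻¹ * (a * t * a⁻¹) * b := by group
        _ = a⁻¹ * b * t := by rw [e']; group)
  rw [relIndex_bot_left] at h4
  have h5 := Nat.mul_le_mul h3 h4
  rw [hT, cV] at h1
  omega

theorem sr64 {T V : Subgroup G} (hT : Nat.card T = 64) (el : IsElementaryAbelian 2 V)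
    (cV : Nat.card V = 16) (VT : V ≤ T) (nV : T ≤ 𝐍[V])
    (fr : ∀ t ∈ T, t ∉ V → Nat.card (V ⊓ Cn t : Subgroup G) ≤ 4) :
    SectionalPRankLE 2 4 T :=
  have _ := el
  have _ := nV
  sr_of fun _ _ _ hH _ sq => sr_core hT cV VT fr hH sq

theorem P4.le_or {V V' T0 : Subgroup G} (p : P4 V V' T0) {E : Subgroup G} (hE : E ≤ T0)
    (sq : ∀ a ∈ E, a * a = 1) : E ≤ V ∨ E ≤ V' :=
  A7.le_or p.eV p.eV' p.nV p.nc (p.sup ▸ hE) sq

theorem P4.fr {V V' T0 : Subgroup G} (p : P4 V V' T0) {t : G} (ht : t ∈ T0) (tV : t ∉ V) :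
    V ⊓ Cn t = V ⊓ V' := by
  obtain ⟨v, hv, w, hw, rfl⟩ := (mem_sup_norm p.nV).1 (p.sup ▸ ht)
  refine le_antisymm (fun a ha => ⟨ha.1, (p.nc a ha.1 w hw ?_).resolve_right fun e => tV (mul_mem hv e)⟩)
    fun a ha => ⟨ha.1, mem_Cn.2 ((el_comm p.eV hv ha.1).mul_left (el_comm p.eV' hw ha.2))⟩
  simpa using ((el_comm p.eV hv ha.1).inv_left.mul_left (mem_Cn.1 ha.2)).symm

theorem sr_sq {V V' T0 : Subgroup G} (p : P4 V V' T0) {t : G} (ht : t ∈ T0) : t * t ∈ V' := by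
  obtain ⟨v, hv, w, hw, rfl⟩ := (mem_sup_norm p.nV).1 (p.sup ▸ ht)
  have h := mul_mem (conj_mem_of_norm (p.nV' hv) hw) hw
  rwa [inv_eq_of_mul_eq_one_right (el_sq p.eV hv), mul_assoc] at h

theorem sr128 {T V V' T0 : Subgroup G} (p : P4 V V' T0) (hT : Nat.card T = 128) (T0T : T0 ≤ T)
    {s : G} (sT : s ∈ T) (sw : cj(s, V) = V') (sw' : cj(s, V') = V) :
    SectionalPRankLE 2 4 T := by
  have VT : V ≤ T0 := p.sup ▸ le_sup_left
  have nV : T0 ≤ 𝐍[V] := p.sup ▸ sup_le le_normalizer p.nV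
  have nV' : T0 ≤ 𝐍[V'] := p.sup ▸ sup_le p.nV' le_normalizer
  have cZ := p.cZ
  have core : ∀ {H N : Subgroup G}, H ≤ T0 → (∀ a ∈ H, a * a ∈ N) → _ := fun {H N} =>
    sr_core (H := H) (N := N) p.cT p.cV VT fun t ht tV => by rw [p.fr ht tV, cZ]
  have i2 : T0.relIndex T = 2 := by
    have := sr_card T T0
    rw [inf_eq_right.2 T0T, p.cT, hT] at this
    omega
  have s0 : s ∉ T0 := fun e => by
    rw [← sw, cj_of_norm (nV e), inf_idem, p.cV] at cZ
    omega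
  refine sr_of fun H N NH hH _ sq => ?_
  by_cases h0 : H ≤ T0
  · exact core h0 sq
  have h1 : Nat.card H ≤ Nat.card (H ⊓ T0 : Subgroup G) * 2 :=
    (sr_card H T0).ge.trans (Nat.mul_le_mul_left _ ((relIndex_le_of_le_right hH (by omega)).trans i2.le))
  by_cases h2 : N ≤ T0
  swap
  · have h3 := core (H := H ⊓ T0) (N := N ⊓ T0) inf_le_right fun a ha => ⟨sq a ha.1, mul_mem ha.2 ha.2⟩
    have h4 := (Nat.mul_le_mul_left _ (FG.SR.two_le_relIndex h2)).trans (sr_card N T0).le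
    omega
  obtain ⟨r, hr, r0⟩ := SetLike.not_le_iff_exists.1 h0
  have h3 : s⁻¹ * r ∈ T0 := (mul_mem_iff_of_index_two (H := T0.subgroupOf T) i2 (a := ⟨s⁻¹, inv_mem sT⟩)
    (b := ⟨r, hH hr⟩)).2 (iff_of_false (fun e => s0 (inv_mem_iff.1 e)) r0)
  have key : ∀ {A B : Subgroup G}, T0 ≤ 𝐍[A] → cj(s, A) = B → ∀ v ∈ A, r * v * r⁻¹ ∈ B := fun hA e v hv => by
    have := conj_mem_cj (g := s) (conj_mem_of_norm (hA h3) hv)
    rw [e] at this
    simpa [mul_assoc] using this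
  have p0 : 0 < Nat.card N := Nat.card_pos
  by_cases h4 : N ⊓ V' = ⊥
  · have h5 : H ⊓ T0 ≤ V ⊓ V' := by
      have nH : ∀ a ∈ H ⊓ T0, r⁻¹ * a * r ∈ H ⊓ T0 := fun a ha =>
        mem_inf.2 ⟨mul_mem (mul_mem (inv_mem hr) ha.1) hr, by
          rw [← p.sup] at ha ⊢
          refine conj_mem_of_norm' (mem_norm_of_cj_le ?_) ha.2
          rw [Subgroup.map_sup]
          exact sup_le ((cj_le_iff.2 (key nV sw)).trans le_sup_right) ((cj_le_iff.2 (key nV' sw')).trans le_sup_left)⟩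
      rcases p.le_or (E := H ⊓ T0) inf_le_right fun a ha =>
        mem_bot.1 (h4 ▸ mem_inf.2 ⟨sq a ha.1, sr_sq p ha.2⟩) with e | e
      · exact le_inf e fun a ha => by simpa [mul_assoc] using key nV sw _ (e (nH a ha))
      · exact le_inf (fun a ha => by simpa [mul_assoc] using key nV' sw' _ (e (nH a ha))) e
    have := card_le_of_le h5
    omega
  have h5 := card_mul_le (inf_le_right : H ⊓ T0 ≤ T0) VT
  have h6 := sr_card (H ⊓ T0 ⊓ V) V'
  have h7 := card_le_of_le (inf_le_inf_right V' (inf_le_right (a := H ⊓ T0) (b := V)))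
  have h8 := sr_inj (A := H ⊓ T0 ⊓ V) (N := N) (B := V') (C := V') (fun a => a * r * a⁻¹ * r⁻¹)
    (fun a ha => sr_cm sq ha.1.1 hr) fun a ha b hb e => by
      have := mul_mem (mul_mem (key nV sw _ (inv_mem ha.2)) e) (key nV sw _ hb.2)
      simpa [mul_assoc] using this
  have h9 := (Nat.mul_le_mul_right _ ((one_lt_card_iff_ne_bot _).2 h4)).trans (sr_card N V').le
  have h10 := Nat.mul_le_mul h7 h8
  rw [p.cT, p.cV] at h5
  rw [cZ] at h10
  omega

end Cfsg.Agent.Or8
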