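import Mathlib
import Cfsg.Agent.Or8.Defs
import Cfsg.Agent.Or8.N1
import Cfsg.Agent.Or8.SR
import Cfsg.Agent.O3.SC

/-! The configuration `CN` does not occur. -/

set_option autoImplicit false
set_option linter.unusedSectionVars false
open Cfsg Subgroup

namespace Cfsg.Agent.Or8

open Cfsg.Agent.K3P Cfsg.Agent.Loc.Mss
open scoped commutatorElement

universe u

variable {G : Type u} [Group G] [Finite G]

namespace N2

/-- A freely acting coset contains an involution. -/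
theorem exists_invol {V : Subgroup G} (hV : IsElementaryAbelian 2 V) (cV : Nat.card V = 16) {a : G} (ha : a ∈ 𝐍[V])
    (h2 : a * a ∈ V) (fr : Nat.card (V ⊓ Cn a : Subgroup G) ≤ 4) : ∃ v ∈ V, v * a * (v * a) = 1 := by
  have cm : ∀ v ∈ V, a * v * a⁻¹ ∈ V := fun v hv => conj_mem_of_norm ha hv
  have mm : ∀ v ∈ V, v * (a * v * a⁻¹) ∈ V ⊓ Cn a := fun v hv => ⟨mul_mem hv (cm v hv), by
    have e : a * (a * v * a⁻¹) * a⁻¹ = v := by
      rw [show a * (a * v * a⁻¹) * a⁻¹ = (a * a) * v * (a * a)⁻¹ by group, (el_comm hV h2 hv).eq]; group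
    refine mem_Cn.2 ?_
    change a * (v * (a * v * a⁻¹)) = v * (a * v * a⁻¹) * a
    rw [(el_comm hV hv (cm v hv)).eq]
    calc a * (a * v * a⁻¹ * v) = a * (a * v * a⁻¹) * a⁻¹ * (a * v * a⁻¹) * a := by group
      _ = v * (a * v * a⁻¹) * a := by rw [e]
      _ = _ := by rw [(el_comm hV hv (cm v hv)).eq]⟩
  let φ : V →* (V ⊓ Cn a : Subgroup G) := MonoidHom.mk' (fun v => ⟨_, mm v v.2⟩) fun s t => by
    refine Subtype.ext ?_
    change (s : G) * t * (a * (s * t) * a⁻¹) = s * (a * s * a⁻¹) * (t * (a * t * a⁻¹))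
    rw [mul_assoc (s : G) (a * s * a⁻¹), ← mul_assoc (a * s * a⁻¹), (el_comm hV (cm s s.2) t.2).eq]
    group
  have h1 : Nat.card φ.ker ≤ Nat.card (V ⊓ Cn a : Subgroup G) := by
    refine Nat.card_le_card_of_injective (fun v => ⟨((v : V) : G), v.1.2, ?_⟩) fun s t e =>
      Subtype.ext (Subtype.ext (Subtype.mk.inj e))
    have e : ((v : V) : G) * (a * (v : V) * a⁻¹) = 1 := congrArg Subtype.val (MonoidHom.mem_ker.1 v.2)
    have e2 := mul_left_cancel (e.trans (el_sq hV v.1.2).symm)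
    exact mem_Cn.2 (mul_inv_eq_iff_eq_mul.1 e2)
  have h3 := φ.ker.card_mul_index
  rw [index_ker, cV] at h3
  have h4 : φ.range = ⊤ := eq_top_of_le_card _ (by nlinarith)
  obtain ⟨v, hv⟩ := h4.ge (mem_top (⟨a * a, h2, mem_Cn.2 (mul_assoc ..).symm⟩ : (V ⊓ Cn a : Subgroup G)))
  have e : (v : G) * (a * v * a⁻¹) = a * a := congrArg Subtype.val hv
  refine ⟨v, v.2, ?_⟩
  calc _ = v * (a * v * a⁻¹) * (a * a) := by group
    _ = 1 := by rw [e, el_sq hV h2]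

variable {V V' T0 S T : Subgroup G} {x : G}

theorem el_cj (h : IsElementaryAbelian 2 V) (g : G) : ∀ a ∈ cj(g, V), a * a = 1 := fun a ha => by
  have := el_sq h (mem_cj.1 ha)
  calc _ = g * (g⁻¹ * a * g * (g⁻¹ * a * g)) * g⁻¹ := by group
    _ = 1 := by rw [this]; group

theorem VT (p : P4 V V' T0) : V ≤ T0 := p.sup ▸ le_sup_left

theorem VT' (p : P4 V V' T0) : V' ≤ T0 := p.sup ▸ le_sup_right

theorem eq_or (p : P4 V V' T0) {E : Subgroup G} (hE : E ≤ T0) (sq : ∀ a ∈ E, a * a = 1) (h : Nat.card E = 16) :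
    E = V ∨ E = V' :=
  (p.le_or hE sq).imp (fun k => O3.eq_of_card k (by rw [h, p.cV])) fun k => O3.eq_of_card k (by rw [h, p.cV'])

theorem ne (p : P4 V V' T0) : V ≠ V' := fun e => by
  have := p.cZ
  rw [← e, inf_idem, p.cV] at this
  omega

/-- An element normalising `T0` fixes or swaps the two subgroups. -/
theorem fix_or (p : P4 V V' T0) {g : G} (hg : g ∈ 𝐍[T0]) :
    (cj(g, V) = V ∧ cj(g, V') = V') ∨ (cj(g, V) = V' ∧ cj(g, V') = V) := by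
  rcases eq_or p (cj_le_of_norm (VT p) hg) (el_cj p.eV g) (by rw [card_cj, p.cV]) with a | a <;>
    rcases eq_or p (cj_le_of_norm (VT' p) hg) (el_cj p.eV' g) (by rw [card_cj, p.cV']) with b | b
  · exact absurd (cj_eq_cj.1 (a.trans b.symm)) (ne p)
  · exact .inl ⟨a, b⟩
  · exact .inr ⟨a, b⟩
  · exact absurd (cj_eq_cj.1 (a.trans b.symm)) (ne p)

theorem swap (p : P4 V V' T0) {g : G} (hg : g ∈ 𝐍[T0]) (n : g ∉ 𝐍[V]) : cj(g, V) = V' ∧ cj(g, V') = V :=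
  (fix_or p hg).resolve_left fun k => n (cj_eq_iff.1 k.1)

theorem fix' (p : P4 V V' T0) {g : G} (hg : g ∈ 𝐍[T0]) (n : g ∈ 𝐍[V]) : g ∈ 𝐍[V'] :=
  (fix_or p hg).elim (fun k => cj_eq_iff.1 k.2) fun k => absurd ((cj_of_norm n).symm.trans k.1) (ne p)

theorem normZ (p : P4 V V' T0) {g : G} (hg : g ∈ 𝐍[T0]) : g ∈ 𝐍[V ⊓ V'] := by
  rw [← cj_eq_iff, cj_inf]
  rcases fix_or p hg with ⟨a, b⟩ | ⟨a, b⟩
  · rw [a, b]
  · rw [a, b, inf_comm]

theorem mul_norm (p : P4 V V' T0) {a b : G} (ha : a ∈ 𝐍[T0]) (hb : b ∈ 𝐍[T0]) (na : a ∉ 𝐍[V]) (nb : b ∉ 𝐍[V]) :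
    b * a ∈ 𝐍[V] := by rw [← cj_eq_iff, ← cj_cj, (swap p ha na).1, (swap p hb nb).2]

theorem cenZ (p : P4 V V' T0) : T0 ≤ 𝐂[V ⊓ V'] :=
  p.sup ▸ sup_le (fun _ ha => mem_cent.2 fun _ hb => (el_comm p.eV hb.1 ha).eq)
    fun _ ha => mem_cent.2 fun _ hb => (el_comm p.eV' hb.2 ha).eq

variable (c : CN V T0 S x)
include c

theorem cS : Nat.card S ≤ 2 * Nat.card T0 := by
  rcases c.top with e | ⟨e, -⟩
  · rw [e]; omega
  · rw [e, c.cardT]

theorem mulS {a b : G} (ha : a ∈ S) (hb : b ∈ S) (na : a ∉ T0) (nb : b ∉ T0) : a * b ∈ T0 :=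
  O3.mul_mem_two c.TS (cS c) ha hb na nb

theorem SN : S ≤ 𝐍[T0] := fun g hg => by
  by_cases k : g ∈ T0
  · exact le_normalizer k
  exact mem_norm_of_cj_le (cj_le_iff.2 fun a ha => mulS c (mul_mem hg (c.TS ha)) (inv_mem hg)
    (fun e => k ((mul_mem_cancel_right ha).1 e)) (by simpa using k))

theorem x_mem {K : Subgroup G} (hK : T0 ≤ K) (hx : x ∈ 𝐍[K]) {e : G} (eS : e ∈ S) (eT : e ∉ T0) (eK : e ∈ K) : x ∈ K := by
  rcases c.top with k | ⟨-, k, -⟩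
  · exact absurd (k ▸ eS) eT
  have h1 := mul_mem (inv_mem (mul_mem eK (conj_mem_of_norm hx (inv_mem eK)))) (hK (k e eS eT))
  have h2 := mul_mem h1 h1
  have h3 : x ^ 3 = 1 := c.xo ▸ pow_orderOf_eq_one x
  rwa [show (e * (x * e⁻¹ * x⁻¹))⁻¹ * (e * x * e⁻¹ * x) * ((e * (x * e⁻¹ * x⁻¹))⁻¹ * (e * x * e⁻¹ * x)) = x ^ 3 * x by
    simp [pow_succ, mul_assoc], h3, one_mul] at h2

variable (p : P4 V V' T0)
include p

theorem not_cen {e : G} (eS : e ∈ S) (eT : e ∉ T0) : e ∉ 𝐂[V ⊓ V'] := fun k => by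
  have h1 := x_mem c (cenZ p) (norm_cent (X := zpowers x) (zpowers_le.2 (normZ p c.xT)) (mem_zpowers x)) eS eT k
  have h2 : V ⊓ V' = ⊥ := le_bot_iff.1 (c.fpf ▸ fun z hz => ⟨VT p hz.1, mem_Cn.2 (mem_cent.1 h1 z hz).symm⟩)
  have := p.cZ
  simp [h2] at this

theorem not_cmod {e : G} (eS : e ∈ S) (eT : e ∉ T0) : e ∉ cmod V' (V ⊓ V') := fun k => by
  have xV' := fix' p c.xT c.xV
  have h0 : T0 ≤ cmod V' (V ⊓ V') := by
    refine le_cmod.2 ⟨fun g hg => normZ p (le_normalizer hg), ?_⟩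
    rw [← p.sup]
    exact comm_sup_le (fun g hg => normZ p (le_normalizer (VT p hg))) (fun g hg => normZ p (le_normalizer (VT' p hg)))
      (le_inf (comm_le_right p.nV) (comm_le_left p.nV'))
      (commutator_le.2 fun a ha b hb => by rw [(el_comm p.eV' ha hb).commutator_eq]; exact one_mem _)
  have h1 := x_mem c h0 (norm_cmod (X := zpowers x) (zpowers_le.2 xV') (zpowers_le.2 (normZ p c.xT)) (mem_zpowers x)) eS eT k
  obtain ⟨v, hv, nv⟩ := SetLike.not_le_iff_exists.1 (show ¬ V' ≤ V ⊓ V' from fun k => by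
    have := card_le_of_le k
    rw [p.cZ, p.cV'] at this
    omega)
  obtain ⟨q, hq, e⟩ := exists_cn ((two_of_el p.eV).to_le inf_le_left) c.xo (normZ p c.xT) (normZ p (le_normalizer (VT' p hv)))
    (by simpa [commutatorElement_def, mul_assoc] using (mem_cmod.1 h1).2 _ (inv_mem hv))
  have h2 : v * q = 1 := c.fpf.le ⟨VT' p (mul_mem hv hq.2), mem_Cn.2 e⟩
  exact nv (eq_inv_of_mul_eq_one_left h2 ▸ inv_mem hq)

/-- Elementary abelian subgroups of order sixteen normalising `T0` lie in it. -/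
theorem le_T0 (hT : T ⊓ 𝐍[V] ≤ S) {E : Subgroup G} (h1 : E ≤ T) (h2 : E ≤ 𝐍[T0]) (sq : ∀ a ∈ E, a * a = 1)
    (cE : Nat.card E = 16) : E ≤ T0 := by
  have el := el_of_sq sq
  have c1 : Nat.card (E ⊓ S : Subgroup G) ≤ 2 * Nat.card (E ⊓ S ⊓ T0 : Subgroup G) :=
    O3.le_two fun a ha b hb na nb => mulS c hb.2 ha.2 nb na
  rw [inf_assoc, inf_eq_right.2 c.TS] at c1
  have h0 := p.le_or (E := E ⊓ T0) inf_le_right fun a ha => sq a ha.1
  by_cases hS : E ≤ S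
  · intro e he
    by_contra eT
    rw [inf_eq_left.2 hS, cE] at c1
    rcases h0 with k | k
    · have := (card_le_of_le (show E ⊓ T0 ≤ V ⊓ Cn e from fun a ha => ⟨k ha, mem_Cn.2 (el_comm el he ha.1)⟩)).trans
        (c.free e (c.syl.le (hS he)) (fun k => eT (c.VT k)) (by rw [sq e he]; exact one_mem _))
      omega
    have c2 := card_mul_le (Q := E ⊓ T0 ⊔ V ⊓ V') le_sup_left le_sup_right
    obtain ⟨z, hz, nz⟩ := SetLike.not_le_iff_exists.1 (show ¬ V ⊓ V' ≤ E ⊓ T0 ⊓ (V ⊓ V') from fun k =>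
      not_cen c p (hS he) eT (mem_cent.2 fun a ha => (el_comm el (k ha).1.1 he).eq))
    have c3 := O3.two_le inf_le_right hz nz
    have e1 : E ⊓ T0 ⊔ V ⊓ V' = V' := O3.eq_of_card (sup_le k inf_le_right) (by rw [p.cZ] at c2 c3; rw [p.cV']; nlinarith)
    refine not_cmod c p (hS he) eT ((le_cmod (X := E)).2 ⟨fun g hg => normZ p (h2 hg), ?_⟩ he)
    have k1 : ⁅E ⊓ T0 ⊔ V ⊓ V', E⁆ ≤ V ⊓ V' := sup_comm_le (fun g hg => normZ p (le_normalizer hg.2)) le_normalizer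
      (commutator_le.2 fun a ha b hb => by rw [(el_comm el ha.1 hb).commutator_eq]; exact one_mem _)
      (comm_le_left fun g hg => normZ p (h2 hg))
    rwa [e1] at k1
  exfalso
  obtain ⟨s, hs, ns⟩ := SetLike.not_le_iff_exists.1 hS
  obtain ⟨a1, a2⟩ := swap p (h2 hs) fun k => ns (hT ⟨h1 hs, k⟩)
  have c2 : Nat.card E ≤ 2 * Nat.card (E ⊓ S : Subgroup G) := O3.le_two fun a ha b hb na nb =>
    hT ⟨mul_mem (h1 hb) (h1 ha), mul_norm p (h2 ha) (h2 hb) (fun k => na (hT ⟨h1 ha, k⟩)) fun k => nb (hT ⟨h1 hb, k⟩)⟩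
  have k : E ⊓ T0 ≤ V ⊓ V' := fun a ha => by
    have e : s * a * s⁻¹ = a := mul_inv_eq_iff_eq_mul.2 (el_comm el hs ha.1).eq
    exact h0.elim (fun k => ⟨k ha, e ▸ a1.le (conj_mem_cj (k ha))⟩) fun k => ⟨e ▸ a2.le (conj_mem_cj (k ha)), k ha⟩
  have c3 := card_le_of_le k
  have e1 := O3.eq_of_card k (by rw [p.cZ]; omega)
  obtain ⟨e, he, eT⟩ := SetLike.not_le_iff_exists.1 (show ¬ E ⊓ S ≤ T0 from fun k => by
    have := card_le_of_le (le_inf inf_le_left k)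
    rw [p.cZ] at c3
    omega)
  exact not_cen c p he.2 eT (mem_cent.2 fun a ha => (el_comm el (e1.ge ha).1 he.1).eq)

theorem T_le (hp : IsPGroup 2 T) (ST : S ≤ T) (hT : T ⊓ 𝐍[V] ≤ S) : T ≤ 𝐍[T0] := by
  by_contra n
  have lt : T ⊓ 𝐍[T0] < T := lt_of_le_not_ge inf_le_left fun k => n (k.trans inf_le_right)
  obtain ⟨g, ⟨g1, g2⟩, g3⟩ := SetLike.exists_of_lt (GT.Tr.lt_inf_normalizer hp lt)
  have le : T0 ≤ T ⊓ 𝐍[T0] := le_inf (c.TS.trans ST) le_normalizer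
  have k : ∀ W ≤ T0, IsElementaryAbelian 2 W → Nat.card W = 16 → cj(g, W) ≤ T0 := fun W h1 h2 h3 =>
    have h4 := cj_le_of_norm (h1.trans le) g2
    le_T0 c p hT (h4.trans inf_le_left) (h4.trans inf_le_right) (el_cj h2 g) (by rw [card_cj, h3])
  refine g3 ⟨g1, mem_norm_of_cj_le ?_⟩
  conv_lhs => rw [← p.sup, cj_sup]
  exact sup_le (k _ (VT p) p.eV p.cV) (k _ (VT' p) p.eV' p.cV')

end N2

open N2 in
theorem CN.false {V T0 S : Subgroup G} {x : G} (c : CN V T0 S x) (h : Hyp G) : False := by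
  obtain ⟨V', p, -⟩ := c.p4
  obtain ⟨T, ST, hT⟩ := Syl.exists_ge c.syl.pg le_top
  have h1 : T ⊓ 𝐍[V] ≤ S := c.syl.ge_of_le (hT.pg.to_le inf_le_left) (le_inf ST c.syl.le) inf_le_right
  have h2 := T_le c p hT.pg ST h1
  rcases c.top with rfl | ⟨-, -, q, qS, qT, q2⟩
  · by_cases hle : T ≤ S
    · obtain rfl := le_antisymm hle ST
      exact h.sr T hT (sr64 c.cardT c.el c.card c.VT c.syl.le fun t ht tV => c.free t (c.syl.le ht) tV (c.sq t ht))
    obtain ⟨s, hs, ns⟩ := SetLike.not_le_iff_exists.1 hle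
    obtain ⟨a1, a2⟩ := swap p (h2 hs) fun k => ns (h1 ⟨hs, k⟩)
    have c1 : Nat.card T ≤ 2 * Nat.card (T ⊓ S : Subgroup G) := O3.le_two fun a ha b hb na nb =>
      h1 ⟨mul_mem hb ha, mul_norm p (h2 ha) (h2 hb) (fun k => na (h1 ⟨ha, k⟩)) fun k => nb (h1 ⟨hb, k⟩)⟩
    have c2 := O3.two_le ST hs ns
    rw [inf_eq_right.2 ST] at c1
    exact h.sr T hT (sr128 p (by rw [c.cardT] at c1 c2; omega) ST hs a1 a2)
  obtain ⟨w, hw, r2⟩ := exists_invol c.el c.card (c.syl.le qS) q2 (c.free q (c.syl.le qS) (fun k => qT (c.VT k)) q2)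
  have rS : w * q ∈ S := mul_mem (c.TS (c.VT hw)) qS
  have rT : w * q ∉ T0 := fun k => qT ((mul_mem_cancel_left (c.VT hw)).1 k)
  generalize w * q = r at r2 rS rT
  have rV : r ∉ V := fun k => rT (c.VT k)
  have c4 : Nat.card (V ⊓ Cn r : Subgroup G) = 4 := by
    have k1 := c.free r (c.syl.le rS) rV (by rw [r2]; exact one_mem _)
    have k2 := sq_le c.el (c.syl.le rS) (by rw [r2]; exact one_mem _)
    rw [c.card] at k2
    nlinarith
  have rN : r ∈ 𝐍[V ⊓ Cn r] := cent_le_norm _ (mem_cent.2 fun a ha => (mem_Cn.1 ha.2).eq.symm)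
  have mem := fun e => O3.mem_sup_inv (e := e) r2 rN
  have el : ∀ a ∈ V ⊓ Cn r ⊔ zpowers r, a * a = 1 := fun a ha => ((mem a).1 ha).elim (fun k => el_sq c.el k.1) fun k => by
    have k1 := el_sq c.el k.1
    have k2 := (mem_Cn.1 k.2).eq
    calc a * a = a * r * (r * (a * r)) * r := by simp only [mul_assoc, ← mul_assoc r r, r2, one_mul, mul_one]
      _ = 1 := by rw [k2, ← mul_assoc, k1, one_mul, r2]
  have rA : r ∈ V ⊓ Cn r ⊔ zpowers r := mem_sup_right (mem_zpowers r)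
  have c8 : Nat.card (V ⊓ Cn r ⊔ zpowers r : Subgroup G) = 8 := by
    have k1 := O3.two_le le_sup_left rA fun k => rV k.1
    have k2 : Nat.card (V ⊓ Cn r ⊔ zpowers r : Subgroup G) ≤
        2 * Nat.card ((V ⊓ Cn r ⊔ zpowers r) ⊓ (V ⊓ Cn r) : Subgroup G) := O3.le_two fun a ha b hb na nb => by
      have k := mul_mem (((mem b).1 hb).resolve_left nb) (((mem a).1 ha).resolve_left na)
      rwa [← (el_comm (el_of_sq el) rA ha).eq, mul_assoc, ← mul_assoc r r, r2, one_mul] at k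
    rw [inf_eq_right.2 (le_sup_left (a := V ⊓ Cn r))] at k2
    omega
  obtain ⟨v, hv, nv⟩ := SetLike.not_le_iff_exists.1 (show ¬ V ⊓ Cn r ≤ V ⊓ V' from fun k =>
    not_cen c p rS rT (mem_cent.2 fun a ha => (mem_Cn.1 ((O3.eq_of_card k (by rw [c4, p.cZ])).ge ha).2).eq.symm))
  refine h.noSC8 hT (sup_le (inf_le_left.trans (c.VT.trans (c.TS.trans ST))) (zpowers_le.2 (ST rS))) (el_of_sq el) c8
    fun g hg => ?_
  have gv : v * g = g * v := mem_cent.1 hg.2 v (mem_sup_left hv)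
  have gr : r * g = g * r := mem_cent.1 hg.2 r rA
  have gS : g ∈ S := h1 ⟨hg.1, by
    by_contra n
    exact nv ⟨hv.1, (mul_inv_eq_iff_eq_mul.2 gv.symm) ▸ (swap p (h2 hg.1) n).1.le (conj_mem_cj hv.1)⟩⟩
  have k : ∀ t ∈ T0, t * v = v * t → r * t = t * r → t ∈ V ⊓ Cn r := fun t ht e1 e2 => ⟨by
    by_contra n
    exact nv ((p.fr ht n).le ⟨hv.1, mem_Cn.2 e1⟩), mem_Cn.2 e2⟩
  by_cases gT : g ∈ T0
  · exact (mem g).2 (.inl (k g gT gv.symm gr))
  · refine (mem g).2 (.inr (k _ (mulS c gS rS gT rT) ?_ (by rw [← mul_assoc, gr])))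
    rw [mul_assoc, (mem_Cn.1 hv.2).eq, ← mul_assoc, ← gv, mul_assoc]

end Cfsg.Agent.Or8
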